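import Mathlib

/-!
Twenty-two points, each the only fixed point of the Sylow 3-subgroup of its stabiliser:
that Sylow subgroup has order three.
-/

set_option autoImplicit false

namespace CfsgLib.SylowCount22

open MulAction

/-- The setting: `P a` is the Sylow `3`-subgroup of the stabiliser of `a`. -/
structure Ctx (G X : Type*) [Group G] [MulAction G X] where
  P : X → Subgroup G
  le_stab : ∀ a, P a ≤ stabilizer G a
  p3 : ∀ a, IsPGroup 3 (P a)
  maxp : ∀ a (K : Subgroup G), K ≤ stabilizer G a → IsPGroup 3 K → K ≤ P a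
  fix : ∀ a b, (∀ g ∈ P a, g • b = b) → b = a

namespace Ctx

variable {G X : Type*} [Group G] [Finite G] [MulAction G X] (c : Ctx G X)

omit [Finite G] in
theorem conj_mem {a : X} {p : G} (hp : p ∈ c.P a) (g : G) : g * p * g⁻¹ ∈ c.P (g • a) := by
  have hle : (c.P a).map (MulAut.conj g).toMonoidHom ≤ stabilizer G (g • a) := by
    rintro _ ⟨q, hq, rfl⟩
    have : q • a = a := c.le_stab a hq
    simp [mem_stabilizer_iff, mul_smul, this]
  exact c.maxp _ _ hle ((c.p3 a).map _) ⟨p, hp, rfl⟩

theorem card_P [IsPretransitive G X] (a b : X) : Nat.card (c.P a) = Nat.card (c.P b) := by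
  have h : ∀ (g : G) (x : X), Nat.card (c.P x) ≤ Nat.card (c.P (g • x)) := fun g x =>
    Nat.card_le_card_of_injective
      (fun p : c.P x => (⟨g * p * g⁻¹, c.conj_mem p.2 g⟩ : c.P (g • x)))
      (fun p q h => Subtype.ext (by simpa using congrArg Subtype.val h))
  obtain ⟨g, rfl⟩ := exists_smul_eq G a b
  exact le_antisymm (h g a) (by simpa using h g⁻¹ (g • a))

/-- The part of `P a` fixing `b`. -/
def Q (a b : X) : Subgroup G := c.P a ⊓ stabilizer G b

omit [Finite G] in
theorem Q_le (a b : X) : c.Q a b ≤ c.P b :=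
  c.maxp b _ inf_le_right ((c.p3 a).to_le inf_le_left)

omit [Finite G] in
theorem Q_comm (a b : X) : c.Q a b = c.Q b a :=
  le_antisymm (le_inf (c.Q_le a b) (inf_le_left.trans (c.le_stab a)))
    (le_inf (c.Q_le b a) (inf_le_left.trans (c.le_stab b)))

omit [Finite G] in
theorem Q_le_P (a b : X) : c.Q a b ≤ c.P a := inf_le_left

theorem orbit_mul (a b : X) :
    Nat.card (orbit (c.P a) b) * Nat.card (c.Q a b) = Nat.card (c.P a) := by
  have hst : stabilizer (c.P a) b = (c.Q a b).subgroupOf (c.P a) := by
    ext x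
    simp [Q, Subgroup.mem_subgroupOf, mem_stabilizer_iff]
    rfl
  rw [← (stabilizer (c.P a) b).card_mul_index, index_stabilizer, mul_comm, hst,
    Nat.card_congr (Subgroup.subgroupOfEquivOfLe (c.Q_le_P a b)).toEquiv,
    Nat.card_coe_set_eq]

theorem Q_ne_top {a b : X} (hab : a ≠ b) : c.Q a b ≠ c.P a := fun h =>
  hab (c.fix a b fun g hg => (h.symm ▸ hg : g ∈ c.Q a b).2).symm

theorem three_dvd_orbit {a b : X} (hab : a ≠ b) : 3 ∣ Nat.card (orbit (c.P a) b) := by
  haveI : Fact (Nat.Prime 3) := ⟨by norm_num⟩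
  haveI := (Set.finite_range fun g : c.P a => g • b).to_subtype
  haveI : Finite (orbit (c.P a) b) := this
  obtain ⟨k, hk⟩ := (c.p3 a).card_orbit b
  rcases Nat.eq_zero_or_pos k with h0 | h0
  · have := c.orbit_mul a b
    rw [hk, h0, pow_zero, one_mul] at this
    exact absurd (Subgroup.eq_of_le_of_card_ge inf_le_left this.ge) (c.Q_ne_top hab)
  · exact hk ▸ dvd_pow_self 3 h0.ne'

/-- Pairs on which the orbit has length three. -/
def R (a b : X) : Prop := a ≠ b ∧ Nat.card (c.P a) = 3 * Nat.card (c.Q a b)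

theorem R_symm [IsPretransitive G X] {a b : X} (h : c.R a b) : c.R b a :=
  ⟨h.1.symm, by rw [c.card_P b a, c.Q_comm b a]; exact h.2⟩

theorem nine_dvd_orbit {a b : X} (hab : a ≠ b) (h : ¬ c.R a b) :
    9 ∣ Nat.card (orbit (c.P a) b) := by
  haveI : Fact (Nat.Prime 3) := ⟨by norm_num⟩
  haveI := (Set.finite_range fun g : c.P a => g • b).to_subtype
  haveI : Finite (orbit (c.P a) b) := this
  obtain ⟨k, hk⟩ := (c.p3 a).card_orbit b
  have h3 := c.three_dvd_orbit hab
  by_cases hk2 : 2 ≤ k
  · exact hk ▸ pow_dvd_pow 3 hk2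
  · exfalso
    apply h
    refine ⟨hab, ?_⟩
    interval_cases k
    · rw [hk] at h3; norm_num at h3
    · rw [← c.orbit_mul a b, hk, pow_one]

theorem line_pair [IsPretransitive G X] {a b x y : X} (h : c.R a b)
    (hx : c.Q a b ≤ stabilizer G x) (hy : c.Q a b ≤ stabilizer G y) (hxy : x ≠ y) :
    c.R x y ∧ c.Q x y = c.Q a b := by
  have hle : c.Q a b ≤ c.Q x y := le_inf (c.maxp x _ hx ((c.p3 a).to_le inf_le_left)) hy
  obtain ⟨j, hj⟩ := Subgroup.card_dvd_of_le hle
  have hd := Subgroup.card_dvd_of_le (c.Q_le_P x y)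
  have hne : Nat.card (c.Q x y) ≠ Nat.card (c.P x) := fun e =>
    c.Q_ne_top hxy (Subgroup.eq_of_le_of_card_ge inf_le_left e.ge)
  have hPx : Nat.card (c.P x) = Nat.card (c.Q a b) * 3 := by rw [c.card_P x a, h.2, mul_comm]
  rw [hj, hPx] at hd hne
  have hq : Nat.card (c.Q a b) ≠ 0 := Nat.card_pos.ne'
  rcases (Nat.dvd_prime (by norm_num)).mp (Nat.dvd_of_mul_dvd_mul_left (Nat.pos_of_ne_zero hq) hd)
    with h1 | h1
  · rw [h1, mul_one] at hj
    refine ⟨⟨hxy, ?_⟩, (Subgroup.eq_of_le_of_card_ge hle hj.le).symm⟩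
    rw [hPx, hj, mul_comm]
  · exact absurd (by rw [h1]) hne

theorem Q_conj_mem [IsPretransitive G X] {a b : X} (h : c.R a b) {g q : G} (hg : g ∈ c.P a)
    (hq : q ∈ c.Q a b) : g⁻¹ * q * g ∈ c.Q a b := by
  haveI : Fact (Nat.Prime 3) := ⟨by norm_num⟩
  obtain ⟨k, hk⟩ := (c.p3 a).exists_card_eq
  have hk0 : k ≠ 0 := by rintro rfl; have := h.2; rw [pow_zero] at hk; omega
  have hidx : ((c.Q a b).subgroupOf (c.P a)).index = 3 := by
    have e := ((c.Q a b).subgroupOf (c.P a)).card_mul_index
    rw [Nat.card_congr (Subgroup.subgroupOfEquivOfLe (c.Q_le_P a b)).toEquiv,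
      h.2, mul_comm 3] at e
    exact Nat.eq_of_mul_eq_mul_left Nat.card_pos e
  haveI hn : ((c.Q a b).subgroupOf (c.P a)).Normal := Subgroup.normal_of_index_eq_minFac_card
    (by rw [hidx, hk, Nat.pow_minFac hk0]; norm_num)
  have := hn.conj_mem (⟨q, hq.1⟩ : c.P a) (Subgroup.mem_subgroupOf.mpr hq) (⟨g, hg⟩ : c.P a)⁻¹
  simpa [Subgroup.mem_subgroupOf] using this

theorem Q_smul (g : G) (a b : X) :
    (c.Q a b).map (MulAut.conj g).toMonoidHom = c.Q (g • a) (g • b) := by
  apply le_antisymm
  · rintro _ ⟨q, hq, rfl⟩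
    refine ⟨c.conj_mem hq.1 g, ?_⟩
    simp [mem_stabilizer_iff, mul_smul, mem_stabilizer_iff.mp hq.2]
  · intro x hx
    refine ⟨g⁻¹ * x * g, ⟨by simpa using c.conj_mem hx.1 g⁻¹, ?_⟩, by simp [mul_assoc]⟩
    simp [mem_stabilizer_iff, mul_smul, mem_stabilizer_iff.mp hx.2]

theorem R_smul [IsPretransitive G X] (g : G) {a b : X} (h : c.R a b) : c.R (g • a) (g • b) :=
  ⟨fun e => h.1 (MulAction.injective g e), by
    rw [← c.Q_smul, Subgroup.card_map_of_injective (MulAut.conj g).injective,
      c.card_P (g • a) a]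
    exact h.2⟩

section Count

variable [Fintype X] [DecidableEq X]

open Classical in
/-- The orbit as a finite set. -/
noncomputable def orbF (a b : X) : Finset X :=
  Finset.univ.filter (· ∈ orbit (c.P a) b)

omit [Finite G] in
theorem mem_orbF {a b x : X} : x ∈ c.orbF a b ↔ x ∈ orbit (c.P a) b := by simp [orbF]

omit [Finite G] in
theorem card_orbF (a b : X) : (c.orbF a b).card = Nat.card (orbit (c.P a) b) := by
  classical
  rw [Nat.card_eq_fintype_card, ← Set.toFinset_card]
  congr 1
  ext x
  simp [mem_orbF]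

/-- A stable set all whose orbit lengths are divisible by `d` has size divisible by `d`. -/
theorem dvd_card_stable {a : X} {d : ℕ} (O : Finset X)
    (hst : ∀ g ∈ c.P a, ∀ b ∈ O, g • b ∈ O) (hd : ∀ b ∈ O, d ∣ Nat.card (orbit (c.P a) b)) :
    d ∣ O.card := by
  rw [Finset.card_eq_sum_card_image (c.orbF a) O]
  refine Finset.dvd_sum fun T hT => ?_
  obtain ⟨b, hb, rfl⟩ := Finset.mem_image.mp hT
  have : O.filter (fun x => c.orbF a x = c.orbF a b) = c.orbF a b := by
    ext x
    simp only [Finset.mem_filter]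
    constructor
    · rintro ⟨-, h⟩
      rw [← h, mem_orbF]
      exact mem_orbit_self x
    · intro hx
      rw [mem_orbF] at hx
      obtain ⟨g, rfl⟩ := hx
      refine ⟨hst g g.2 b hb, Finset.ext fun y => ?_⟩
      rw [mem_orbF, mem_orbF, orbit_eq_iff.mpr (mem_orbit b g)]
  rw [this, card_orbF]
  exact hd b hb

open Classical in
/-- Neighbours. -/
noncomputable def N (a : X) : Finset X := Finset.univ.filter (c.R a)

open Classical in
/-- The fixed points of `Q a b`. -/
noncomputable def line (a b : X) : Finset X :=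
  Finset.univ.filter fun x => c.Q a b ≤ stabilizer G x

theorem mem_N {a b : X} : b ∈ c.N a ↔ c.R a b := by simp [N]

theorem mem_line {a b x : X} : x ∈ c.line a b ↔ c.Q a b ≤ stabilizer G x := by simp [line]

theorem left_mem_line (a b : X) : a ∈ c.line a b :=
  c.mem_line.mpr (inf_le_left.trans (c.le_stab a))

theorem right_mem_line (a b : X) : b ∈ c.line a b := c.mem_line.mpr inf_le_right

theorem line_eq [IsPretransitive G X] {a b x y : X} (h : c.R a b) (hx : x ∈ c.line a b)
    (hy : y ∈ c.line a b) (hxy : x ≠ y) : c.line x y = c.line a b := by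
  simp only [line]
  rw [(c.line_pair h (c.mem_line.mp hx) (c.mem_line.mp hy) hxy).2]

/-- The lines through a point. -/
noncomputable def through (a : X) : Finset (Finset X) := (c.N a).image (c.line a)

theorem N_smul [IsPretransitive G X] (g : G) (a : X) :
    c.N (g • a) = (c.N a).image (g • ·) := by
  ext x
  simp only [Finset.mem_image, mem_N]
  exact ⟨fun h => ⟨g⁻¹ • x, by simpa using c.R_smul g⁻¹ h, smul_inv_smul g x⟩,
    fun ⟨y, hy, e⟩ => e ▸ c.R_smul g hy⟩

theorem line_smul (g : G) (a b : X) :
    c.line (g • a) (g • b) = (c.line a b).image (g • ·) := by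
  ext x
  simp only [Finset.mem_image, mem_line]
  constructor
  · intro h
    refine ⟨g⁻¹ • x, fun q hq => ?_, smul_inv_smul g x⟩
    have := h (c.Q_smul g a b ▸ ⟨q, hq, rfl⟩ : (MulAut.conj g q) ∈ c.Q (g • a) (g • b))
    rw [mem_stabilizer_iff] at this ⊢
    rw [MulAut.conj_apply, mul_smul, mul_smul] at this
    exact eq_inv_smul_iff.mpr this
  · rintro ⟨y, hy, rfl⟩
    rw [← c.Q_smul g a b]
    rintro _ ⟨q, hq, rfl⟩
    simp [mem_stabilizer_iff, mul_smul, mem_stabilizer_iff.mp (hy hq)]

theorem through_smul [IsPretransitive G X] (g : G) (a : X) :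
    c.through (g • a) = (c.through a).image (fun F => F.image (g • ·)) := by
  simp only [through, c.N_smul, Finset.image_image]
  exact Finset.image_congr fun b _ => c.line_smul g a b

theorem card_N [IsPretransitive G X] (a : X) :
    (c.N a).card = ∑ F ∈ c.through a, (F.card - 1) := by
  rw [through, Finset.card_eq_sum_card_image (c.line a) (c.N a)]
  refine Finset.sum_congr rfl fun F hF => ?_
  obtain ⟨b, hb, rfl⟩ := Finset.mem_image.mp hF
  rw [← Finset.card_erase_of_mem (c.left_mem_line a b)]
  congr 1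
  ext x
  rw [Finset.mem_filter, Finset.mem_erase, mem_N]
  refine ⟨fun ⟨h, e⟩ => ⟨h.1.symm, e ▸ c.right_mem_line a x⟩, fun ⟨hne, hx⟩ => ⟨?_, ?_⟩⟩
  · exact (c.line_pair (c.mem_N.mp hb) (inf_le_left.trans (c.le_stab a)) (c.mem_line.mp hx)
      hne.symm).1
  · exact c.line_eq (c.mem_N.mp hb) (c.left_mem_line a b) hx hne.symm

theorem line_mod [IsPretransitive G X] {a b : X} (h : c.R a b) :
    (c.line a b).card % 3 = 1 := by
  have h1 : 3 ∣ ((c.line a b).erase a).card := by
    refine c.dvd_card_stable (a := a) _ (fun g hg x hx => ?_) fun x hx =>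
      c.three_dvd_orbit (Finset.ne_of_mem_erase hx).symm
    have ha : g • a = a := c.le_stab a hg
    rw [Finset.mem_erase, mem_line] at hx ⊢
    refine ⟨fun e => hx.1 (MulAction.injective g (e.trans ha.symm)), fun q hq => ?_⟩
    have := mem_stabilizer_iff.mp (hx.2 (c.Q_conj_mem h hg hq))
    rw [mul_smul, mul_smul, inv_smul_eq_iff] at this
    exact this
  rw [Finset.card_erase_of_mem (c.left_mem_line a b)] at h1
  have : 0 < (c.line a b).card := Finset.card_pos.mpr ⟨a, c.left_mem_line a b⟩
  omega

theorem dvd_mul_through [IsPretransitive G X] (a : X) (f : ℕ) :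
    f ∣ Fintype.card X * ((c.through a).filter fun F => F.card = f).card := by
  classical
  let L := (Finset.univ.biUnion c.through).filter fun F => F.card = f
  have key : ∀ x, L.filter (x ∈ ·) = (c.through x).filter fun F => F.card = f := by
    intro x
    ext F
    simp only [L, Finset.mem_filter, Finset.mem_biUnion, Finset.mem_univ, true_and, through,
      Finset.mem_image, mem_N]
    constructor
    · rintro ⟨⟨⟨y, b, hb, rfl⟩, hf⟩, hx⟩
      refine ⟨?_, hf⟩
      by_cases e : x = y
      · exact ⟨b, e ▸ hb, e ▸ rfl⟩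
      · exact ⟨y, (c.line_pair hb (c.mem_line.mp hx) (inf_le_left.trans (c.le_stab y)) e).1,
          c.line_eq hb hx (c.left_mem_line y b) e⟩
    · rintro ⟨⟨b, hb, rfl⟩, hf⟩
      exact ⟨⟨⟨x, b, hb, rfl⟩, hf⟩, c.left_mem_line x b⟩
  have hcst : ∀ x, ((c.through x).filter fun F => F.card = f).card =
      ((c.through a).filter fun F => F.card = f).card := by
    intro x
    obtain ⟨g, rfl⟩ := exists_smul_eq G a x
    have hinj : Function.Injective fun F : Finset X => F.image (g • ·) :=
      Finset.image_injective (MulAction.injective g)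
    have hcard : ∀ F : Finset X, (F.image (g • ·)).card = F.card :=
      fun F => Finset.card_image_of_injective _ (MulAction.injective g)
    rw [c.through_smul, Finset.filter_image, Finset.card_image_of_injective _ hinj]
    simp only [hcard]
  refine ⟨L.card, ?_⟩
  have h := Finset.sum_card_bipartiteAbove_eq_sum_card_bipartiteBelow
    (s := (Finset.univ : Finset X)) (t := L) (fun x F => x ∈ F)
  simp only [Finset.bipartiteAbove, Finset.bipartiteBelow] at h
  rw [Finset.sum_congr rfl (fun x _ => by rw [key x, hcst x]), Finset.sum_const,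
    Finset.card_univ, smul_eq_mul] at h
  rw [h, Finset.sum_congr rfl (g := fun _ => f) (fun F hF => ?_), Finset.sum_const,
    smul_eq_mul, mul_comm]
  simp only [Finset.filter_mem_eq_inter, Finset.univ_inter]
  exact (Finset.mem_filter.mp hF).2

include c in
/-- A subgroup above a point stabiliser is that stabiliser or everything. -/
theorem stab_max [IsPretransitive G X] (hX : Fintype.card X = 22) (a : X) (H : Subgroup G)
    (hH : stabilizer G a ≤ H) (hne : H ≠ stabilizer G a) : H = ⊤ := by
  classical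
  let O := Finset.univ.filter (fun x => x ∈ orbit H a)
  have hO : O.card = (stabilizer G a).relIndex H := by
    rw [Subgroup.relIndex]
    have hst : stabilizer H a = (stabilizer G a).subgroupOf H := by
      ext x
      simp [Subgroup.mem_subgroupOf, mem_stabilizer_iff]
      rfl
    rw [← hst, index_stabilizer, ← Set.ncard_coe_finset]
    congr 1
    ext x
    simp [O]
  have hd : 3 ∣ (O.erase a).card := by
    refine c.dvd_card_stable (a := a) _ (fun g hg x hx => ?_) fun x hx =>
      c.three_dvd_orbit (Finset.ne_of_mem_erase hx).symm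
    have ha : g • a = a := c.le_stab a hg
    simp only [O, Finset.mem_erase, Finset.mem_filter, Finset.mem_univ, true_and] at hx ⊢
    obtain ⟨hxa, h, rfl⟩ := hx
    refine ⟨fun e => hxa (MulAction.injective g (e.trans ha.symm)),
      ⟨⟨g, hH (c.le_stab a hg)⟩ * h, ?_⟩⟩
    exact mul_smul g (h : G) a
  have haO : a ∈ O := by simp [O]
  rw [Finset.card_erase_of_mem haO, hO] at hd
  have hidx : (stabilizer G a).relIndex H * H.index = 22 := by
    rw [Subgroup.relIndex_mul_index hH, index_stabilizer_of_transitive, Nat.card_eq_fintype_card,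
      hX]
  have hne1 : (stabilizer G a).relIndex H ≠ 1 := fun e =>
    hne (le_antisymm (Subgroup.relIndex_eq_one.mp e) hH)
  have hdvd : (stabilizer G a).relIndex H ∣ 22 := Dvd.intro _ hidx
  have : (stabilizer G a).relIndex H = 22 := by
    have := Nat.le_of_dvd (by norm_num) hdvd
    generalize (stabilizer G a).relIndex H = r at *
    interval_cases r <;> omega
  rw [this] at hidx
  exact Subgroup.index_eq_one.mp (by omega)

omit [Finite G] [Fintype X] [DecidableEq X] in
theorem normal_fix [IsPretransitive G X] [FaithfulSMul G X] (K : Subgroup G) [hK : K.Normal]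
    (a : X) (h : K ≤ stabilizer G a) : K = ⊥ := by
  rw [eq_bot_iff]
  intro k hk
  refine Subgroup.mem_bot.mpr (eq_of_smul_eq_smul fun x : X => ?_)
  obtain ⟨g, rfl⟩ := exists_smul_eq G a x
  have := mem_stabilizer_iff.mp (h (hK.conj_mem k hk g⁻¹))
  rw [mul_smul, mul_smul, inv_inv, inv_smul_eq_iff] at this
  rw [this, one_smul]

theorem card_P_eq_three [IsPretransitive G X] [FaithfulSMul G X] (hX : Fintype.card X = 22)
    (a₀ : X) : Nat.card (c.P a₀) = 3 := by
  classical
  by_contra hne
  have hP : ∀ a, Nat.card (c.P a) ≠ 3 := fun a => c.card_P a a₀ ▸ hne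
  have hN21 : ∀ a, (c.N a).card ≤ 21 := by
    intro a
    refine (Finset.card_le_card (t := Finset.univ.erase a) fun x hx =>
      Finset.mem_erase.mpr ⟨(c.mem_N.mp hx).1.symm, Finset.mem_univ _⟩).trans ?_
    rw [Finset.card_erase_of_mem (Finset.mem_univ _), Finset.card_univ, hX]
  have hfour : ∀ a b, c.R a b → (c.line a b).card = 4 := by
    intro a b hab
    have hmod := c.line_mod hab
    have hmem : c.line a b ∈ (c.through a).filter (fun F => F.card = (c.line a b).card) :=
      Finset.mem_filter.mpr ⟨Finset.mem_image_of_mem _ (c.mem_N.mpr hab), rfl⟩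
    have hm : ((c.through a).filter (fun F => F.card = (c.line a b).card)).card *
        ((c.line a b).card - 1) ≤ 21 := by
      refine le_trans ?_ ((c.card_N a).ge.trans (hN21 a))
      refine le_trans (le_of_eq ?_) (Finset.sum_le_sum_of_subset (Finset.filter_subset
        (fun F => F.card = (c.line a b).card) (c.through a)))
      rw [Finset.sum_congr rfl (g := fun _ => (c.line a b).card - 1)
        (fun F hF => by rw [(Finset.mem_filter.mp hF).2]), Finset.sum_const, smul_eq_mul]
    have hpos := Finset.card_pos.mpr ⟨_, hmem⟩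
    have hdvd := c.dvd_mul_through a (c.line a b).card
    rw [hX] at hdvd
    have h22 : (c.line a b).card ≠ 22 := by
      intro e
      have hall : c.line a b = Finset.univ := Finset.eq_univ_of_card _ (by rw [e, hX])
      have : c.Q a b = ⊥ := by
        rw [eq_bot_iff]
        intro q hq
        refine Subgroup.mem_bot.mpr (eq_of_smul_eq_smul fun x : X => ?_)
        have hx : x ∈ c.line a b := hall ▸ Finset.mem_univ x
        rw [mem_stabilizer_iff.mp (c.mem_line.mp hx hq), one_smul]
      exact hP a (by rw [hab.2, this, Subgroup.card_bot])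
    have htwo : 1 < (c.line a b).card := Finset.one_lt_card.mpr
      ⟨a, c.left_mem_line a b, b, c.right_mem_line a b, hab.1⟩
    have hle : (c.line a b).card ≤ 22 := hX ▸ Finset.card_le_univ _
    generalize ((c.through a).filter (fun F => F.card = (c.line a b).card)).card = m at *
    generalize (c.line a b).card = f at *
    have hmle : m ≤ 7 := by
      have : m * 3 ≤ m * (f - 1) := Nat.mul_le_mul_left m (by omega)
      omega
    interval_cases f <;> interval_cases m <;> omega
  have htwelve : ∀ a, (c.N a).card = 12 := by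
    intro a
    have hsum : (c.N a).card = 3 * (c.through a).card := by
      rw [c.card_N, Finset.sum_congr rfl (g := fun _ => 3), Finset.sum_const, smul_eq_mul,
        mul_comm]
      intro F hF
      obtain ⟨b, hb, rfl⟩ := Finset.mem_image.mp hF
      rw [hfour a b (c.mem_N.mp hb)]
    have hdvd := c.dvd_mul_through a 4
    rw [Finset.filter_true_of_mem (fun F hF => ?_), hX] at hdvd
    swap
    · obtain ⟨b, hb, rfl⟩ := Finset.mem_image.mp hF
      exact hfour a b (c.mem_N.mp hb)
    have h9 : 9 ∣ (Finset.univ.erase a \ c.N a).card := by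
      refine c.dvd_card_stable (a := a) _ (fun g hg x hx => ?_) fun x hx => ?_
      · have ha : g • a = a := c.le_stab a hg
        simp only [Finset.mem_sdiff, Finset.mem_erase, Finset.mem_univ, and_true, mem_N] at hx ⊢
        refine ⟨fun e => hx.1 (MulAction.injective g (e.trans ha.symm)), fun h => hx.2 ?_⟩
        have := c.R_smul g⁻¹ h
        rwa [inv_smul_smul, inv_smul_eq_iff.mpr ha.symm] at this
      · simp only [Finset.mem_sdiff, Finset.mem_erase, Finset.mem_univ, and_true, mem_N] at hx
        exact c.nine_dvd_orbit (Ne.symm hx.1) hx.2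
    rw [Finset.card_sdiff_of_subset (fun x hx => Finset.mem_erase.mpr
      ⟨(c.mem_N.mp hx).1.symm, Finset.mem_univ _⟩),
      Finset.card_erase_of_mem (Finset.mem_univ _), Finset.card_univ, hX] at h9
    have := hN21 a
    omega
  -- two collinear points have no common neighbour off their line
  have htri : ∀ a b d, c.R a b → c.R a d → c.R b d → d ∈ c.line a b := by
    intro a b d hab had hbd
    rw [mem_line]
    intro q hq
    rw [mem_stabilizer_iff]
    by_contra hqd
    have hqa : q ∈ c.P a := hq.1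
    have hqb : q ∈ c.P b := c.Q_le a b hq
    have m1 : q • d ∈ c.line a d := c.mem_line.mpr fun r hr => by
      have := mem_stabilizer_iff.mp ((c.Q_conj_mem had hqa hr).2)
      rw [mul_smul, mul_smul, inv_smul_eq_iff] at this
      exact this
    have m2 : q • d ∈ c.line b d := c.mem_line.mpr fun r hr => by
      have := mem_stabilizer_iff.mp ((c.Q_conj_mem hbd hqb hr).2)
      rw [mul_smul, mul_smul, inv_smul_eq_iff] at this
      exact this
    have e1 := c.line_eq had (c.right_mem_line a d) m1 (Ne.symm hqd)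
    have e2 := c.line_eq hbd (c.right_mem_line b d) m2 (Ne.symm hqd)
    have hb' : b ∈ c.line a d := e1 ▸ e2.symm ▸ c.left_mem_line b d
    have e3 := c.line_eq had (c.left_mem_line a d) hb' hab.1
    have hd' : d ∈ c.line a b := e3.symm ▸ c.right_mem_line a d
    exact hqd (mem_stabilizer_iff.mp (c.mem_line.mp hd' hq))
  obtain ⟨o, ho⟩ : (Finset.univ.erase a₀ \ c.N a₀).Nonempty := by
    rw [← Finset.card_pos, Finset.card_sdiff_of_subset (fun x hx => Finset.mem_erase.mpr
      ⟨(c.mem_N.mp hx).1.symm, Finset.mem_univ _⟩),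
      Finset.card_erase_of_mem (Finset.mem_univ _), Finset.card_univ, hX, htwelve]
    norm_num
  have hall : ∀ b, c.R a₀ b → Finset.univ.erase a₀ \ c.N a₀ ⊆ c.N b := by
    intro b hb
    set O := Finset.univ.erase a₀ \ c.N a₀ with hOdef
    have hO : O.card = 9 := by
      rw [hOdef, Finset.card_sdiff_of_subset (fun x hx => Finset.mem_erase.mpr
        ⟨(c.mem_N.mp hx).1.symm, Finset.mem_univ _⟩),
        Finset.card_erase_of_mem (Finset.mem_univ _), Finset.card_univ, hX, htwelve]
    have hsub : c.N b \ (c.line a₀ b).erase b ⊆ O := by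
      intro x hx
      simp only [hOdef, Finset.mem_sdiff, Finset.mem_erase, Finset.mem_univ, and_true,
        mem_N] at hx ⊢
      refine ⟨fun e => hx.2 ⟨hx.1.1.symm, e ▸ c.left_mem_line a₀ b⟩, fun h => hx.2 ⟨hx.1.1.symm, ?_⟩⟩
      exact htri a₀ b x hb h hx.1
    have hge : O.card ≤ (c.N b \ (c.line a₀ b).erase b).card := by
      have := Finset.le_card_sdiff ((c.line a₀ b).erase b) (c.N b)
      rw [htwelve, Finset.card_erase_of_mem (c.right_mem_line a₀ b), hfour a₀ b hb] at this
      omega
    rw [← Finset.eq_of_subset_of_card_le hsub hge]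
    exact Finset.sdiff_subset
  have hNo : c.N o = c.N a₀ := by
    refine (Finset.eq_of_subset_of_card_le (fun b hb => ?_) (by rw [htwelve, htwelve])).symm
    exact c.mem_N.mpr (c.R_symm (c.mem_N.mp (hall b (c.mem_N.mp hb) ho)))
  let H : Subgroup G :=
    { carrier := {g | c.N (g • a₀) = c.N a₀ ∧ (c.N a₀).image (g • ·) = c.N a₀}
      one_mem' := by simp
      mul_mem' := by
        rintro g h ⟨hg, hg'⟩ ⟨hh, hh'⟩
        have : (c.N a₀).image ((g * h) • ·) = ((c.N a₀).image (h • ·)).image (g • ·) := by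
          rw [Finset.image_image]; exact Finset.image_congr fun x _ => mul_smul g h x
        refine ⟨?_, by rw [this, hh', hg']⟩
        rw [mul_smul, c.N_smul, hh, hg']
      inv_mem' := by
        rintro g ⟨hg, hg'⟩
        have : (c.N a₀).image (g⁻¹ • ·) = c.N a₀ := by
          conv_lhs => rw [← hg', Finset.image_image]
          simp [Function.comp_def]
        exact ⟨by rw [c.N_smul, this], this⟩ }
  have hmemH : ∀ g : G, c.N (g • a₀) = c.N a₀ → g ∈ H := fun g hg =>
    ⟨hg, by rw [← c.N_smul, hg]⟩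
  have hle : stabilizer G a₀ ≤ H := fun g hg => hmemH g (by rw [mem_stabilizer_iff.mp hg])
  obtain ⟨g, hg⟩ := exists_smul_eq G a₀ o
  have hgH : g ∈ H := hmemH g (hg ▸ hNo)
  have htop := c.stab_max hX a₀ H hle fun e => by
    have : g • a₀ = a₀ := (e ▸ hgH : g ∈ stabilizer G a₀)
    rw [hg] at this
    simp only [Finset.mem_sdiff, Finset.mem_erase] at ho
    exact ho.1.1 this
  obtain ⟨b, hb⟩ : (c.N a₀).Nonempty := Finset.card_pos.mp (by rw [htwelve]; norm_num)
  obtain ⟨g', hg''⟩ := exists_smul_eq G a₀ b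
  have : g' ∈ H := htop ▸ Subgroup.mem_top g'
  have hbN : b ∈ c.N b := by rw [← hg'', this.1, hg'']; exact hb
  exact (c.mem_N.mp hbN).1 rfl

end Count

end Ctx

end CfsgLib.SylowCount22
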