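import Mathlib

/-!
Small facts for the twenty-two point problem: counting elements of prime order and
transitive groups of degree seven whose order is prime to three.
-/

set_option autoImplicit false

namespace CfsgLib.SylowCount22

open Equiv MulAction

/-- Distinct subgroups of prime order `p` give `p - 1` elements of order `p` each. -/
theorem prime_subgroups_elements {G ι : Type*} [Group G] [Finite G] [Finite ι] {p : ℕ}
    [hp : Fact p.Prime] (P : ι → Subgroup G) (hP : ∀ i, Nat.card (P i) = p)
    (hinj : Function.Injective P) :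
    Nat.card ι * (p - 1) ≤ Nat.card {g : G // orderOf g = p} := by
  classical
  haveI := Fintype.ofFinite ι
  have hord : ∀ i, ∀ g : {g : P i // g ≠ 1}, orderOf (g.1 : G) = p := by
    intro i g
    have h : orderOf g.1 ∣ p := hP i ▸ orderOf_dvd_natCard g.1
    rcases (Nat.dvd_prime hp.out).mp h with h1 | h1
    · exact absurd (orderOf_eq_one_iff.mp h1) g.2
    · rw [Subgroup.orderOf_coe, h1]
  have hgen : ∀ i, ∀ g : {g : P i // g ≠ 1}, Subgroup.zpowers (g.1 : G) = P i := by
    intro i g
    exact Subgroup.eq_of_le_of_card_ge (Subgroup.zpowers_le.mpr g.1.2)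
      (by rw [Nat.card_zpowers, hord i g, hP i])
  have hfib : ∀ i, Nat.card {g : P i // g ≠ 1} = p - 1 := by
    intro i
    haveI := Fintype.ofFinite (P i)
    rw [Nat.card_eq_fintype_card, Fintype.card_subtype_compl, Fintype.card_subtype_eq,
      ← Nat.card_eq_fintype_card, hP i]
  have hc : Nat.card (Σ i, {g : P i // g ≠ 1}) = Nat.card ι * (p - 1) := by
    rw [Nat.card_sigma, Finset.sum_congr rfl (fun i _ => hfib i), Finset.sum_const,
      Finset.card_univ, Nat.card_eq_fintype_card (α := ι), smul_eq_mul]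
  rw [← hc]
  refine Nat.card_le_card_of_injective
    (fun x => (⟨(x.2.1 : G), hord x.1 x.2⟩ : {g : G // orderOf g = p})) ?_
  rintro ⟨i, g⟩ ⟨j, g'⟩ h
  have hg : (g.1 : G) = g'.1 := congrArg Subtype.val h
  obtain rfl : i = j := hinj (by rw [← hgen i g, ← hgen j g', hg])
  congr 1
  exact Subtype.ext (Subtype.ext hg)

theorem sylow_elements {G : Type*} [Group G] [Finite G] {p : ℕ} [Fact p.Prime]
    (h : ∀ P : Sylow p G, Nat.card (P : Subgroup G) = p) :
    Nat.card (Sylow p G) * (p - 1) ≤ Nat.card {g : G // orderOf g = p} :=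
  prime_subgroups_elements (fun P : Sylow p G => (P : Subgroup G)) h fun _ _ e => Sylow.ext e

/-- A hom into a group of exponent two kills elements of odd order. -/
theorem hom_odd {G : Type*} [Group G] (f : G →* ℤˣ) (g : G) (h : Odd (orderOf g)) : f g = 1 := by
  have e := congrArg f (pow_orderOf_eq_one g)
  rw [map_pow, map_one] at e
  obtain ⟨k, hk⟩ := h
  rwa [hk, pow_succ, pow_mul, Int.units_sq, one_pow, one_mul] at e

variable {Y : Type*} [Fintype Y] [DecidableEq Y]

theorem no56 (hY : Fintype.card Y = 7) (K : Subgroup (Perm Y)) (hK : Nat.card K = 56)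
    (h48 : 48 ≤ Nat.card {g : K // orderOf g = 7}) : False := by
  classical
  haveI : Fact (Nat.Prime 2) := ⟨Nat.prime_two⟩
  obtain ⟨T, hT⟩ := Sylow.exists_subgroup_card_pow_prime (G := K) 2 (n := 3)
    (by rw [hK]; norm_num)
  haveI := Fintype.ofFinite K
  have hsub : ∀ g ∈ T, orderOf g ≠ 7 := by
    intro g hg h7
    have := T.orderOf_dvd_natCard hg
    rw [hT, h7] at this
    norm_num at this
  have hT' : (Finset.univ.filter (· ∈ T)) = Finset.univ.filter (fun g : K => orderOf g ≠ 7) := by
    refine Finset.eq_of_subset_of_card_le (fun g hg => ?_) ?_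
    · simp only [Finset.mem_filter, Finset.mem_univ, true_and] at hg ⊢
      exact hsub g hg
    · have e := Finset.card_filter_add_card_filter_not (s := (Finset.univ : Finset K))
        (fun g : K => orderOf g = 7)
      rw [Finset.card_univ, ← Nat.card_eq_fintype_card, hK] at e
      rw [Nat.card_eq_fintype_card, Fintype.card_subtype] at h48
      have : (Finset.univ.filter (· ∈ T)).card = 8 := by
        rw [← Fintype.card_subtype, ← Nat.card_eq_fintype_card, hT]; norm_num
      rw [this]
      simp only [ne_eq]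
      omega
  have hmemT : ∀ g : K, g ∈ T ↔ orderOf g ≠ 7 := fun g => by
    have := Finset.ext_iff.mp hT' g
    simpa using this
  have hTn : ∀ g ∈ T, ∀ h : K, h * g * h⁻¹ ∈ T := fun g hg h => by
    rw [hmemT] at hg ⊢
    rwa [← MulAut.conj_apply, (MulAut.conj h).orderOf_eq]
  haveI : Fact (Nat.Prime 7) := ⟨by norm_num⟩
  obtain ⟨x, hx⟩ := exists_prime_orderOf_dvd_card' (G := K) 7 (by rw [hK]; norm_num)
  have hTp : IsPGroup 2 T := IsPGroup.of_card (n := 3) hT
  obtain ⟨y0, hy0⟩ := hTp.nonempty_fixed_point_of_prime_not_dvd_card Y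
    (by rw [Nat.card_eq_fintype_card, hY]; norm_num)
  -- `x` moves `y0` through all seven points
  have hbot : T = ⊥ := by
    rw [eq_bot_iff]
    intro g hg
    refine Subgroup.mem_bot.mpr (Subtype.ext (Equiv.ext fun y => ?_))
    have hfix : ∀ h : K, ∀ z : Y, (∀ g ∈ T, (g : Perm Y) z = z) → ∀ g ∈ T,
        (g : Perm Y) ((h : Perm Y) z) = (h : Perm Y) z := fun h z hz g hg => by
      have := hz _ (by simpa using hTn g hg h⁻¹ : h⁻¹ * g * h ∈ T)
      rw [Subgroup.coe_mul, Subgroup.coe_mul, Perm.mul_apply, Perm.mul_apply,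
        Subgroup.coe_inv, Perm.inv_eq_iff_eq] at this
      exact this
    have hx7 : orderOf (x : Perm Y) = 7 := by rw [Subgroup.orderOf_coe, hx]
    have hsupp : (x : Perm Y).support = Finset.univ := by
      refine Finset.eq_univ_of_card _ ?_
      have hle := Finset.card_le_univ (x : Perm Y).support
      obtain ⟨n, hn⟩ := Perm.cycleType_prime_order (σ := (x : Perm Y)) (by rw [hx7]; norm_num)
      have hs := (x : Perm Y).sum_cycleType
      rw [hn, Multiset.sum_replicate, smul_eq_mul, hx7] at hs
      omega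
    have hcyc : (x : Perm Y).IsCycle := Perm.isCycle_of_prime_order (by rw [hx7]; norm_num)
      (by rw [hsupp, Finset.card_univ, hY, hx7]; norm_num)
    obtain ⟨i, hi⟩ := hcyc.exists_pow_eq (x := y0) (y := y)
      (by rw [← Perm.mem_support, hsupp]; exact Finset.mem_univ _)
      (by rw [← Perm.mem_support, hsupp]; exact Finset.mem_univ _)
    have h := hfix (x ^ i) y0 (fun g hg => hy0 ⟨g, hg⟩) g hg
    rw [Subgroup.coe_pow, hi] at h
    simpa using h
  rw [hbot, Subgroup.card_bot] at hT
  norm_num at hT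

/-- A group of degree seven with order divisible by seven and prime to three has order dividing
fourteen. -/
theorem perm7_card (hY : Fintype.card Y = 7) (H : Subgroup (Perm Y)) (h7 : 7 ∣ Nat.card H)
    (h3 : ¬ 3 ∣ Nat.card H) : Nat.card H ∣ 14 := by
  classical
  haveI : Fact (Nat.Prime 7) := ⟨by norm_num⟩
  have h560 : Nat.card H ∣ 560 := by
    have h := H.card_subgroup_dvd_card
    rw [Nat.card_perm, Nat.card_eq_fintype_card (α := Y), hY] at h
    have h9 : Nat.Coprime (Nat.card H) 9 :=
      (Nat.Coprime.pow_left 2 (Nat.prime_three.coprime_iff_not_dvd.mpr h3)).symm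
    refine h9.dvd_of_dvd_mul_left ?_
    rw [show (9 : ℕ) * 560 = Nat.factorial 7 from rfl]
    exact h
  have hS : ∀ P : Sylow 7 H, Nat.card (P : Subgroup H) = 7 := by
    intro P
    obtain ⟨k, hk⟩ := P.2.exists_card_eq
    have h1 : 7 ^ k ∣ 560 := hk ▸ (Subgroup.card_subgroup_dvd_card _).trans h560
    have h2 := P.dvd_card_of_dvd_card h7
    have hk1 : k ≤ 1 := by
      by_contra hk2
      have := (pow_dvd_pow 7 (show 2 ≤ k by omega)).trans h1
      norm_num at this
    interval_cases k <;> simp_all
  have P : Sylow 7 H := default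
  set N := Subgroup.normalizer ((P : Subgroup H) : Set H) with hN
  obtain ⟨x, hx⟩ := exists_prime_orderOf_dvd_card' (G := (P : Subgroup H)) 7 (by rw [hS])
  have hx7 : orderOf ((x : H) : Perm Y) = 7 := by
    rw [Subgroup.orderOf_coe, Subgroup.orderOf_coe, hx]
  have hsupp : ((x : H) : Perm Y).support = Finset.univ := by
    refine Finset.eq_univ_of_card _ ?_
    have hle := Finset.card_le_univ ((x : H) : Perm Y).support
    obtain ⟨n, hn⟩ := Perm.cycleType_prime_order (σ := ((x : H) : Perm Y)) (by rw [hx7]; norm_num)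
    have hs := ((x : H) : Perm Y).sum_cycleType
    rw [hn, Multiset.sum_replicate, smul_eq_mul, hx7] at hs
    omega
  have hcyc : ((x : H) : Perm Y).IsCycle := Perm.isCycle_of_prime_order (by rw [hx7]; norm_num)
    (by rw [hsupp, Finset.card_univ, hY, hx7]; norm_num)
  have hC : Subgroup.centralizer ((P : Subgroup H) : Set H) ≤ P := by
    intro t ht
    obtain ⟨y0⟩ : Nonempty Y := Fintype.card_pos_iff.mp (by omega)
    have hmem : ∀ y : Y, y ∈ ((x : H) : Perm Y).support := fun y => by
      rw [hsupp]; exact Finset.mem_univ y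
    obtain ⟨i, hi⟩ := hcyc.exists_pow_eq (x := y0) (y := (t : Perm Y) y0)
      (Perm.mem_support.mp (hmem y0)) (Perm.mem_support.mp (hmem _))
    have hti : t = (x : H) ^ i := by
      apply Subtype.ext
      refine Equiv.ext fun y => ?_
      obtain ⟨j, hj⟩ := hcyc.exists_pow_eq (x := y0) (y := y)
        (Perm.mem_support.mp (hmem y0)) (Perm.mem_support.mp (hmem y))
      have hc : Commute (t : Perm Y) ((x : H) : Perm Y) :=
        (congrArg Subtype.val (ht x x.2)).symm
      rw [← hj, ← Perm.mul_apply, (hc.pow_right j).eq, Perm.mul_apply, ← hi,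
        Subgroup.coe_pow, ← Perm.mul_apply, ← Perm.mul_apply, ← pow_add, ← pow_add, add_comm]
    rw [hti]
    exact Subgroup.pow_mem _ x.2 i
  have hPC : (P : Subgroup H) ≤ Subgroup.centralizer ((P : Subgroup H) : Set H) := by
    haveI : IsCyclic (P : Subgroup H) := isCyclic_of_prime_card (hS P)
    haveI : IsMulCommutative (P : Subgroup H) := IsCyclic.isMulCommutative
    exact Subgroup.le_centralizer _
  obtain ⟨e, he, hNc⟩ : ∃ e, e ∣ 6 ∧ Nat.card N = 7 * e := by
    refine ⟨((P : Subgroup H).subgroupOf N).index, ?_, ?_⟩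
    · have key := Subgroup.card_dvd_of_injective _
        (QuotientGroup.kerLift_injective (P : Subgroup H).normalizerMonoidHom)
      haveI : IsCyclic (P : Subgroup H) := isCyclic_of_prime_card (hS P)
      rw [Subgroup.normalizerMonoidHom_ker, IsCyclic.card_mulAut, hS P,
        Nat.totient_prime (by norm_num), le_antisymm hC hPC] at key
      exact key
    · rw [← ((P : Subgroup H).subgroupOf N).card_mul_index,
        Nat.card_congr (Subgroup.subgroupOfEquivOfLe Subgroup.le_normalizer).toEquiv, hS P]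
  have hn : Nat.card (Sylow 7 H) * (7 * e) = Nat.card H := by
    rw [P.card_eq_index_normalizer, ← hNc, mul_comm]
    exact N.card_mul_index
  have hmod : Nat.card (Sylow 7 H) % 7 = 1 := card_sylow_modEq_one 7 H
  have he2 : e = 1 ∨ e = 2 := by
    have : e ≤ 6 := Nat.le_of_dvd (by norm_num) he
    have h3e : ¬ 3 ∣ e := fun h => h3 (hn ▸ Dvd.dvd.mul_left (Dvd.dvd.mul_left h 7) _)
    interval_cases e <;> simp_all
  have h80 : Nat.card (Sylow 7 H) ∣ 80 := by
    have h := (Dvd.intro (7 * e) rfl).trans (hn ▸ h560 :)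
    have h' : Nat.card (Sylow 7 H) * 7 ∣ 80 * 7 := by
      refine (Dvd.intro e ?_).trans (h560 : Nat.card H ∣ 80 * 7)
      rw [← hn, mul_assoc]
    exact Nat.dvd_of_mul_dvd_mul_right (by norm_num) h'
  have hcase : Nat.card (Sylow 7 H) = 1 ∨ Nat.card (Sylow 7 H) = 8 := by
    have hd : ∀ n ∈ Nat.divisors 80, n % 7 = 1 → n = 1 ∨ n = 8 := by decide
    exact hd _ (Nat.mem_divisors.mpr ⟨h80, by norm_num⟩) hmod
  rcases hcase with h1 | h8
  · rw [h1, one_mul] at hn
    rcases he2 with rfl | rfl <;> rw [← hn] <;> norm_num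
  exfalso
  have h48 := sylow_elements hS
  rw [h8] at h48
  rw [h8] at hn
  rcases he2 with rfl | rfl
  · exact no56 hY H (by omega) h48
  set K := H ⊓ alternatingGroup Y with hK
  haveI : Nontrivial Y := Fintype.one_lt_card_iff_nontrivial.mp (by omega)
  have hall : ∀ g : H, Odd (orderOf g) → (g : Perm Y) ∈ K := fun g hg =>
    ⟨g.2, Equiv.Perm.mem_alternatingGroup.mpr (hom_odd (Perm.sign.comp H.subtype) g hg)⟩
  have hK' : Nat.card K * (Nat.card (Perm.sign.comp H.subtype).range) = 112 := by
    have e := (Perm.sign.comp H.subtype).ker.card_mul_index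
    rw [Subgroup.index_ker, show Nat.card H = 112 by omega] at e
    rw [← e]
    congr 1
    refine Nat.card_congr (Equiv.ofBijective
      (fun g => (⟨⟨g.1, g.2.1⟩, Equiv.Perm.mem_alternatingGroup.mp g.2.2⟩ : (Perm.sign.comp H.subtype).ker))
      ⟨fun a b h => Subtype.ext (congrArg (fun z => ((z.1 : H) : Perm Y)) h),
        fun g => ⟨⟨(g.1 : Perm Y), g.1.2, Equiv.Perm.mem_alternatingGroup.mpr g.2⟩, rfl⟩⟩)
  have hr : Nat.card (Perm.sign.comp H.subtype).range ∣ 2 := by
    refine (Subgroup.card_subgroup_dvd_card _).trans ?_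
    rw [Nat.card_eq_fintype_card, Fintype.card_units_int]
  rcases (Nat.dvd_prime Nat.prime_two).mp hr with hr1 | hr2
  · have h := Subgroup.card_dvd_of_le (inf_le_right : K ≤ alternatingGroup Y)
    rw [hr1, mul_one] at hK'
    rw [hK', nat_card_alternatingGroup, Nat.card_eq_fintype_card, hY] at h
    norm_num [Nat.factorial] at h
  · refine no56 hY K (by rw [hr2] at hK'; omega) (h48.trans ?_)
    refine Nat.card_le_card_of_injective (fun g => ⟨⟨(g.1 : Perm Y), hall g.1 ?_⟩, ?_⟩)
      (fun a b h => Subtype.ext (Subtype.ext (congrArg (fun z => ((z.1 : K) : Perm Y)) h)))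
    · rw [g.2]; decide
    · rw [← Subgroup.orderOf_coe]
      show orderOf (g.1 : Perm Y) = 7
      rw [Subgroup.orderOf_coe, g.2]

end CfsgLib.SylowCount22
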