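import Mathlib
import Cfsg.Agent.SylowCount.TwentyTwoDesign
import Cfsg.Agent.SylowCount.TwentyTwoSmall

/-!
The order of a point stabiliser in the twenty-two point problem.
-/

set_option autoImplicit false

namespace CfsgLib.SylowCount22

open MulAction

namespace Ctx

variable {G X : Type*} [Group G] [Finite G] [MulAction G X] (c : Ctx G X) [Fintype X]
  [DecidableEq X]

omit [Finite G] in
theorem orbF_smul (g : G) (a b : X) :
    c.orbF (g • a) (g • b) = (c.orbF a b).image (g • ·) := by
  ext x
  simp only [Finset.mem_image, mem_orbF]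
  constructor
  · rintro ⟨⟨p, hp⟩, rfl⟩
    refine ⟨(g⁻¹ * p * g) • b, ⟨⟨_, ?_⟩, rfl⟩, ?_⟩
    · simpa using c.conj_mem hp g⁻¹
    · show g • (g⁻¹ * p * g) • b = p • g • b
      simp [smul_smul, mul_assoc]
  · rintro ⟨_, ⟨⟨p, hp⟩, rfl⟩, rfl⟩
    refine ⟨⟨_, c.conj_mem hp g⟩, ?_⟩
    show (g * p * g⁻¹) • g • b = g • p • b
    simp [smul_smul, mul_assoc]

/-- The five-part of a stabiliser. -/
def U (a : X) : Subgroup G := Subgroup.closure {y : G | y • a = a ∧ y ^ 5 = 1}

omit [Fintype X] [DecidableEq X] in
include c in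
theorem U_smul (g : G) (a : X) : (U a : Subgroup G).map (MulAut.conj g).toMonoidHom = U (g • a) := by
  rw [U, U, MonoidHom.map_closure]
  congr 1
  ext y
  simp only [Set.mem_image, Set.mem_ofPred_eq, MulEquiv.coe_toMonoidHom, MulAut.conj_apply]
  constructor
  · rintro ⟨z, ⟨hz, hz5⟩, rfl⟩
    exact ⟨by rw [mul_smul, mul_smul, inv_smul_smul, hz], by rw [conj_pow, hz5]; simp⟩
  · rintro ⟨hy, hy5⟩
    refine ⟨g⁻¹ * y * g, ⟨by rw [mul_smul, mul_smul, hy, inv_smul_smul], ?_⟩, by simp [mul_assoc]⟩
    have := conj_pow (i := 5) (a := g⁻¹) (b := y)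
    rw [inv_inv] at this
    rw [this, hy5]
    simp

include c in
/-- The order of a point stabiliser. -/
theorem card_stab [IsPretransitive G X] [FaithfulSMul G X] (hX : Fintype.card X = 22) (a : X) :
    Nat.card (stabilizer G a) ∈ ({21, 42, 84, 3, 6, 12, 24, 48, 96} : Finset ℕ) := by
  classical
  set S := stabilizer G a with hSdef
  have h3 := c.card_P_eq_three hX a
  haveI : IsCyclic (c.P a) := isCyclic_of_prime_card (p := 3) h3
  haveI : IsMulCommutative (c.P a) := IsCyclic.isMulCommutative
  haveI : Fact (Nat.Prime 3) := ⟨by norm_num⟩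
  let blocks : Finset (Finset X) := (Finset.univ.erase a).image (c.orbF a)
  have horb3 : ∀ b, b ≠ a → (c.orbF a b).card = 3 := by
    intro b hb
    rw [c.card_orbF]
    have h1 := c.three_dvd_orbit (Ne.symm hb)
    have h2 : Nat.card (orbit (c.P a) b) ∣ 3 := h3 ▸ Dvd.intro _ (c.orbit_mul a b)
    exact Nat.dvd_antisymm h2 h1
  have hblocks : blocks.card = 7 := by
    have e := Finset.card_eq_sum_card_image (c.orbF a) (Finset.univ.erase a)
    rw [Finset.card_erase_of_mem (Finset.mem_univ _), Finset.card_univ, hX] at e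
    have : ∀ T ∈ blocks, ((Finset.univ.erase a).filter fun b => c.orbF a b = T).card = 3 := by
      intro T hT
      obtain ⟨b, hb, rfl⟩ := Finset.mem_image.mp hT
      have hba := Finset.ne_of_mem_erase hb
      convert horb3 b hba using 2
      ext x
      simp only [Finset.mem_filter, Finset.mem_erase, Finset.mem_univ, and_true]
      refine ⟨fun ⟨_, h⟩ => h ▸ c.mem_orbF.mpr (mem_orbit_self x), fun hx => ?_⟩
      have hx' := c.mem_orbF.mp hx
      refine ⟨?_, Finset.ext fun y => by rw [mem_orbF, mem_orbF, orbit_eq_iff.mpr hx']⟩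
      rintro rfl
      obtain ⟨⟨p, hp⟩, hpb⟩ := hx'
      have hpa : p • x = x := c.le_stab x hp
      exact hba (MulAction.injective p (hpb.trans hpa.symm))
    rw [Finset.sum_congr rfl this, Finset.sum_const, smul_eq_mul] at e
    omega
  let act : MulAction S {T // T ∈ blocks} :=
    { smul := fun g T => ⟨T.1.image ((g : G) • ·), by
        obtain ⟨b, hb, hT⟩ := Finset.mem_image.mp T.2
        have hga : (g : G) • a = a := g.2
        rw [← hT, ← c.orbF_smul, hga]
        refine Finset.mem_image_of_mem _ (Finset.mem_erase.mpr ⟨fun e => ?_, Finset.mem_univ _⟩)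
        exact Finset.ne_of_mem_erase hb (MulAction.injective (g : G) (e.trans hga.symm))⟩
      one_smul := fun T => Subtype.ext (by
        show T.1.image ((1 : G) • ·) = T.1
        simp)
      mul_smul := fun g h T => Subtype.ext (by
        show T.1.image (((g : G) * h) • ·) = (T.1.image ((h : G) • ·)).image ((g : G) • ·)
        rw [Finset.image_image]
        exact Finset.image_congr fun x _ => mul_smul (g : G) h x) }
  have hY : Fintype.card {T // T ∈ blocks} = 7 := by rw [Fintype.card_coe, hblocks]
  let ψ := @toPermHom S {T // T ∈ blocks} _ act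
  let C := (Subgroup.centralizer (c.P a : Set G)).subgroupOf S
  let f := ψ.comp C.subtype
  have hker : Nat.card f.ker = 3 := by
    rw [← h3]
    refine Nat.card_congr (Equiv.ofBijective (fun k => (⟨((k.1 : S) : G), ?_⟩ : c.P a))
      ⟨fun k l h => Subtype.ext (Subtype.ext (Subtype.ext (congrArg (fun z : c.P a => (z : G)) h))), ?_⟩)
    · -- an element of the kernel has order dividing three
      obtain ⟨⟨⟨k, hkS⟩, hkC⟩, hk⟩ := k
      refine c.maxp a (Subgroup.zpowers k) (Subgroup.zpowers_le.mpr hkS) ?_ (Subgroup.mem_zpowers k)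
      have hcube : k ^ 3 = 1 := by
        refine eq_of_smul_eq_smul fun b : X => ?_
        rw [one_smul]
        by_cases hb : b = a
        · subst hb; exact (Subgroup.pow_mem _ hkS 3 : k ^ 3 ∈ stabilizer G b)
        · have hfix := congrArg Subtype.val (DFunLike.congr_fun (MonoidHom.mem_ker.mp hk)
            (⟨c.orbF a b, Finset.mem_image_of_mem _
              (Finset.mem_erase.mpr ⟨hb, Finset.mem_univ _⟩)⟩ : {T // T ∈ blocks}))
          have hmem : k • b ∈ c.orbF a b := by
            have : k • b ∈ (c.orbF a b).image (k • ·) :=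
              Finset.mem_image_of_mem _ (c.mem_orbF.mpr (mem_orbit_self b))
            have hfix' : (c.orbF a b).image (k • ·) = c.orbF a b := hfix
            rwa [hfix'] at this
          obtain ⟨⟨p, hp⟩, hpb⟩ := c.mem_orbF.mp hmem
          change p • b = k • b at hpb
          have hc : p * k = k * p := hkC p hp
          have hp3 : p ^ 3 = 1 := by
            have := pow_card_eq_one' (G := c.P a) (x := ⟨p, hp⟩)
            rw [h3] at this
            exact congrArg Subtype.val this
          have h2 : k • p • b = p • p • b := by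
            rw [← mul_smul, ← hc, mul_smul, ← hpb]
          calc k ^ 3 • b = k • k • k • b := by simp [pow_succ, mul_smul]
            _ = p ^ 3 • b := by
              rw [← hpb, h2, ← mul_smul k, ← hc, mul_smul, ← mul_smul k, ← hc, mul_smul, ← hpb]
              simp [pow_succ, mul_smul]
            _ = b := by rw [hp3, one_smul]
      obtain ⟨i, -, hi⟩ := (Nat.dvd_prime_pow Nat.prime_three).mp
        ((orderOf_dvd_of_pow_eq_one hcube).trans (dvd_of_eq (pow_one 3).symm))
      exact IsPGroup.of_card (n := i) (by rw [Nat.card_zpowers, hi])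
    · rintro ⟨p, hp⟩
      refine ⟨⟨⟨⟨p, c.le_stab a hp⟩, Subgroup.mem_subgroupOf.mpr
        ((c.P a).le_centralizer hp)⟩, MonoidHom.mem_ker.mpr ?_⟩, rfl⟩
      refine Equiv.ext fun T => Subtype.ext ?_
      obtain ⟨b, hb, hT⟩ := Finset.mem_image.mp T.2
      show T.1.image (p • ·) = T.1
      rw [← hT, ← c.orbF_smul, (c.le_stab a hp : p • a = a)]
      refine Finset.ext fun y => ?_
      rw [mem_orbF, mem_orbF, show orbit (c.P a) (p • b) = orbit (c.P a) b from
        orbit_eq_iff.mpr ⟨⟨p, hp⟩, rfl⟩]
  have hCidx : C.index ∣ 2 := by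
    let f2 := (Subgroup.normalizerMonoidHom (c.P a)).comp
      (Subgroup.inclusion (show S ≤ Subgroup.normalizer (c.P a : Set G) from fun g hg => by
        rw [Subgroup.mem_normalizer_iff]
        intro p
        refine ⟨fun hp => ?_, fun hp => ?_⟩
        · have := c.conj_mem hp g
          rwa [mem_stabilizer_iff.mp hg] at this
        · have := c.conj_mem hp g⁻¹
          rw [inv_smul_eq_iff.mpr (mem_stabilizer_iff.mp hg).symm] at this
          simpa [mul_assoc] using this))
    have hk : f2.ker = C := by
      rw [← MonoidHom.comap_ker, Subgroup.normalizerMonoidHom_ker]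
      rfl
    rw [← hk, Subgroup.index_ker]
    refine (Subgroup.card_subgroup_dvd_card _).trans ?_
    rw [IsCyclic.card_mulAut, h3, Nat.totient_prime Nat.prime_three]
  have hS : Nat.card S = C.index * (3 * Nat.card f.range) := by
    rw [← hker, ← Subgroup.index_ker, f.ker.card_mul_index, mul_comm]
    exact C.card_mul_index.symm
  have h9 : ¬ 9 ∣ Nat.card S := by
    intro h
    obtain ⟨T, hT⟩ := Sylow.exists_subgroup_card_pow_prime (G := S) 3 (n := 2) (by simpa using h)
    have hle := c.maxp a (T.map S.subtype) (Subgroup.map_subtype_le T)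
      (IsPGroup.of_card (n := 2) (by rw [Subgroup.card_subtype, hT]))
    have := Subgroup.card_dvd_of_le hle
    rw [Subgroup.card_subtype, hT, h3] at this
    norm_num at this
  have hh3 : ¬ 3 ∣ Nat.card f.range := fun h => h9 (by
    rw [hS]
    exact Dvd.dvd.mul_left (Nat.mul_dvd_mul_left 3 h) _)
  have hh : Nat.card f.range ∣ 560 := by
    have h := f.range.card_subgroup_dvd_card
    rw [Nat.card_perm, Nat.card_eq_fintype_card (α := {T // T ∈ blocks}), hY] at h
    have h9' : Nat.Coprime (Nat.card f.range) 9 :=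
      (Nat.Coprime.pow_left 2 (Nat.prime_three.coprime_iff_not_dvd.mpr hh3)).symm
    refine h9'.dvd_of_dvd_mul_left ?_
    rw [show (9 : ℕ) * 560 = Nat.factorial 7 from rfl]
    exact h
  have he : C.index ∈ ({1, 2} : Finset ℕ) := by
    rcases (Nat.dvd_prime Nat.prime_two).mp hCidx with h | h <;> simp [h]
  have fin7 : ∀ e ∈ ({1, 2} : Finset ℕ), ∀ h ∈ Nat.divisors 14, 7 ∣ h →
      e * (3 * h) ∈ ({21, 42, 84, 3, 6, 12, 24, 48, 96} : Finset ℕ) := by decide
  have fin2 : ∀ e ∈ ({1, 2} : Finset ℕ), ∀ h ∈ Nat.divisors 16,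
      e * (3 * h) ∈ ({21, 42, 84, 3, 6, 12, 24, 48, 96} : Finset ℕ) := by decide
  rw [hS]
  by_cases h7 : 7 ∣ Nat.card f.range
  · exact fin7 _ he _ (Nat.mem_divisors.mpr ⟨perm7_card hY f.range h7 hh3, by norm_num⟩) h7
  refine fin2 _ he _ (Nat.mem_divisors.mpr ⟨?_, by norm_num⟩)
  have h5 : ¬ 5 ∣ Nat.card f.range := by
    intro h5
    have h5S : 5 ∣ Nat.card S := hS ▸ Dvd.dvd.mul_left (Dvd.dvd.mul_left h5 3) _
    have h7S : ¬ 7 ∣ Nat.card S := by
      intro h
      rw [hS] at h
      rcases (by norm_num : Nat.Prime 7).dvd_mul.mp h with h | h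
      · have := Nat.le_of_dvd (by norm_num) (h.trans hCidx)
        omega
      · rcases (by norm_num : Nat.Prime 7).dvd_mul.mp h with h | h
        · norm_num at h
        · exact h7 h
    set gens : Set G := {y : G | y • a = a ∧ y ^ 5 = 1}
    -- some block is fixed by every generator
    have hfixed : ∃ T : {T // T ∈ blocks}, ∀ y (hy : y ∈ gens), (act.smul ⟨y, hy.1⟩ T) = T := by
      by_contra hcon
      push Not at hcon
      let US := (U a : Subgroup G).subgroupOf S
      letI := act
      have hbig : ∀ T : {T // T ∈ blocks}, 5 ≤ Nat.card (orbit US T) := by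
        intro T
        obtain ⟨y, hy, hyT⟩ := hcon T
        let y' : S := ⟨y, hy.1⟩
        have hyU : y' ∈ US := Subgroup.mem_subgroupOf.mpr (Subgroup.subset_closure hy)
        have hd : Nat.card (orbit (Subgroup.zpowers y') T) ∣ 5 := by
          rw [Nat.card_coe_set_eq, ← index_stabilizer]
          refine (Subgroup.index_dvd_card _).trans ?_
          rw [Nat.card_zpowers]
          exact orderOf_dvd_of_pow_eq_one (Subtype.ext hy.2)
        have hsub : orbit (Subgroup.zpowers y') T ⊆ orbit US T := by
          rintro _ ⟨⟨g, hg⟩, rfl⟩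
          exact ⟨⟨g, Subgroup.zpowers_le.mpr hyU hg⟩, rfl⟩
        rcases (Nat.dvd_prime (by norm_num)).mp hd with h1 | h1
        · exfalso
          apply hyT
          have := (Nat.card_eq_one_iff_unique.mp h1).1
          exact congrArg Subtype.val (@Subsingleton.elim _ this
            (⟨y' • T, ⟨y', Subgroup.mem_zpowers y'⟩, rfl⟩ : orbit (Subgroup.zpowers y') T)
            ⟨T, mem_orbit_self T⟩)
        · rw [← h1]
          exact Nat.card_mono (Set.toFinite _) hsub
      obtain ⟨T0⟩ : Nonempty {T // T ∈ blocks} := Fintype.card_pos_iff.mp (by omega)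
      have huniv : orbit US T0 = Set.univ := by
        refine Set.eq_univ_of_forall fun T => ?_
        by_contra hT
        have hdis : Disjoint (orbit US T0) (orbit US T) := by
          rw [Set.disjoint_left]
          intro z hz hz'
          rw [← orbit_eq_iff] at hz hz' hT
          exact hT (hz'.symm.trans hz)
        have h1 := Set.ncard_union_eq hdis (Set.toFinite _) (Set.toFinite _)
        have h2 := Set.ncard_le_ncard (Set.subset_univ (orbit US T0 ∪ orbit US T)) (Set.toFinite _)
        rw [Set.ncard_univ, Nat.card_eq_fintype_card, hY, h1, ← Nat.card_coe_set_eq,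
          ← Nat.card_coe_set_eq] at h2
        have := hbig T0
        have := hbig T
        omega
      apply h7S
      refine dvd_trans ?_ US.card_subgroup_dvd_card
      have := (stabilizer US T0).index_dvd_card
      rwa [index_stabilizer, huniv, Set.ncard_univ, Nat.card_eq_fintype_card, hY] at this
    obtain ⟨T, hT⟩ := hfixed
    obtain ⟨b, hb, hTb⟩ := Finset.mem_image.mp T.2
    have hba := Finset.ne_of_mem_erase hb
    have hyb : ∀ y ∈ gens, y • b = b := by
      intro y hy
      have himg : (c.orbF a b).image (y • ·) = c.orbF a b := by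
        rw [hTb]; exact congrArg Subtype.val (hT y hy)
      have hst : ∀ i : ℕ, y ^ i • b ∈ c.orbF a b := by
        intro i
        induction i with
        | zero => rw [pow_zero, one_smul]; exact c.mem_orbF.mpr (mem_orbit_self b)
        | succ i ih => rw [pow_succ', mul_smul, ← himg]; exact Finset.mem_image_of_mem _ ih
      by_contra hne
      have hd : Nat.card (orbit (Subgroup.zpowers y) b) = 5 := by
        have hd : Nat.card (orbit (Subgroup.zpowers y) b) ∣ 5 := by
          rw [Nat.card_coe_set_eq, ← index_stabilizer]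
          refine (Subgroup.index_dvd_card _).trans ?_
          rw [Nat.card_zpowers]
          exact orderOf_dvd_of_pow_eq_one hy.2
        refine ((Nat.dvd_prime (by norm_num)).mp hd).resolve_left fun h1 => hne ?_
        have := (Nat.card_eq_one_iff_unique.mp h1).1
        exact congrArg Subtype.val (@Subsingleton.elim _ this
          (⟨y • b, ⟨y, Subgroup.mem_zpowers y⟩, rfl⟩ : orbit (Subgroup.zpowers y) b)
          ⟨b, mem_orbit_self b⟩)
      have hsub : orbit (Subgroup.zpowers y) b ⊆ ↑(c.orbF a b) := by
        rintro _ ⟨⟨g, hg⟩, rfl⟩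
        obtain ⟨i, rfl⟩ := (IsOfFinOrder.mem_powers_iff_mem_zpowers
          (isOfFinOrder_of_finite y)).mpr hg
        exact hst i
      have := Set.ncard_le_ncard hsub (Set.toFinite _)
      rw [← Nat.card_coe_set_eq, hd, Set.ncard_coe_finset, horb3 b hba] at this
      omega
    have hle : (U a : Subgroup G) ≤ U b :=
      Subgroup.closure_mono fun y hy => ⟨hyb y hy, hy.2⟩
    obtain ⟨g, hg⟩ := exists_smul_eq G a b
    have hUab : (U a : Subgroup G) = U b := by
      refine Subgroup.eq_of_le_of_card_ge hle ?_
      rw [← hg, ← c.U_smul, Subgroup.card_map_of_injective (MulAut.conj g).injective]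
    have hnorm : ∀ x : G, U (x • a) = (U a : Subgroup G) →
        x ∈ Subgroup.normalizer ((U a : Subgroup G) : Set G) := by
      intro x hx
      rw [Subgroup.mem_normalizer_iff]
      intro u
      conv_rhs => rw [← hx, ← c.U_smul x a]
      exact ⟨fun hu => ⟨u, hu, rfl⟩, fun ⟨v, hv, hv'⟩ => (MulAut.conj x).injective hv' ▸ hv⟩
    have htop : Subgroup.normalizer ((U a : Subgroup G) : Set G) = ⊤ := by
      refine c.stab_max hX a _ (fun x hx => hnorm x (by rw [mem_stabilizer_iff.mp hx])) fun e => ?_
      have : g • a = a := (e ▸ hnorm g (by rw [hg, hUab]) : g ∈ stabilizer G a)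
      exact hba (hg.symm.trans this)
    haveI : (U a : Subgroup G).Normal := Subgroup.normalizer_eq_top_iff.mp htop
    have hbot := normal_fix (X := X) (U a : Subgroup G) a
      ((Subgroup.closure_le _).mpr fun y hy => hy.1)
    haveI : Fact (Nat.Prime 5) := ⟨by norm_num⟩
    obtain ⟨y, hy⟩ := exists_prime_orderOf_dvd_card' (G := S) 5 h5S
    have hyU : (y : G) ∈ (U a : Subgroup G) := Subgroup.subset_closure
      ⟨y.2, by rw [← Subgroup.coe_pow, ← hy, pow_orderOf_eq_one]; rfl⟩
    rw [hbot, Subgroup.mem_bot] at hyU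
    rw [← Subgroup.orderOf_coe, hyU, orderOf_one] at hy
    norm_num at hy
  have c5 : Nat.Coprime (Nat.card f.range) 35 := by
    rw [show (35 : ℕ) = 5 * 7 from rfl]
    exact Nat.Coprime.mul_right ((Nat.Prime.coprime_iff_not_dvd (by norm_num)).mpr h5).symm
      ((Nat.Prime.coprime_iff_not_dvd (by norm_num)).mpr h7).symm
  exact c5.dvd_of_dvd_mul_left (hh : Nat.card f.range ∣ 35 * 16)

end Ctx

end CfsgLib.SylowCount22
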