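import Mathlib
import Cfsg.Agent.SylowCount.TwentyTwoStab

/-!
No finite group has exactly twenty-two Sylow 3-subgroups.
-/

set_option autoImplicit false

namespace CfsgLib.SylowCount22

open MulAction

theorem eleven_decide : ∀ s ∈ ({21, 42, 84, 3, 6, 12, 24, 48, 96} : Finset ℕ),
    ∀ k ∈ Nat.divisors 20, k ∣ 2 * s → (2 * s / k) % 11 = 1 →
      2 * s / k = 12 ∧ (k ∣ 10 → k = 1 ∨ k = 2) := by decide

namespace Ctx

variable {G X : Type*} [Group G] [Finite G] [MulAction G X] (c : Ctx G X) [Fintype X]
  [DecidableEq X]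

include c in
theorem false_of_faithful [IsPretransitive G X] [FaithfulSMul G X] (hX : Fintype.card X = 22) :
    False := by
  classical
  obtain ⟨a⟩ : Nonempty X := Fintype.card_pos_iff.mp (by omega)
  haveI : Fact (Nat.Prime 11) := ⟨by norm_num⟩
  haveI : Fact (Nat.Prime 3) := ⟨by norm_num⟩
  set S := stabilizer G a with hSdef
  have hs := c.card_stab hX a
  rw [← hSdef] at hs
  have hG : Nat.card G = 22 * Nat.card S := by
    rw [← S.card_mul_index, index_stabilizer_of_transitive, Nat.card_eq_fintype_card (α := X), hX, mul_comm]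
  have h11S : ¬ 11 ∣ Nat.card S := by
    revert hs
    generalize Nat.card S = s
    intro hs
    simp only [Finset.mem_insert, Finset.mem_singleton] at hs
    omega
  have hS11 : ∀ P : Sylow 11 G, Nat.card (P : Subgroup G) = 11 := by
    intro P
    obtain ⟨k, hk⟩ := P.2.exists_card_eq
    have h1 : 11 ^ k ∣ 22 * Nat.card S := hk ▸ hG ▸ Subgroup.card_subgroup_dvd_card _
    have h2 := P.dvd_card_of_dvd_card (hG ▸ Dvd.dvd.mul_right (by norm_num) _)
    have hk1 : k ≤ 1 := by
      by_contra hk2
      have h3 := (pow_dvd_pow 11 (show 2 ≤ k by omega)).trans h1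
      rw [show 22 * Nat.card S = 11 * (2 * Nat.card S) by ring, show (11 : ℕ) ^ 2 = 11 * 11 from rfl]
        at h3
      rcases (by norm_num : Nat.Prime 11).dvd_mul.mp
        (Nat.dvd_of_mul_dvd_mul_left (by norm_num) h3) with h | h
      · norm_num at h
      · exact h11S h
    interval_cases k <;> simp_all
  have P : Sylow 11 G := default
  obtain ⟨⟨x, hxP⟩, hx⟩ := exists_prime_orderOf_dvd_card' (G := (P : Subgroup G)) 11 (by rw [hS11])
  rw [← Subgroup.orderOf_coe] at hx
  change orderOf x = 11 at hx
  have hxgen : Subgroup.zpowers x = (P : Subgroup G) :=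
    Subgroup.eq_of_le_of_card_ge (Subgroup.zpowers_le.mpr hxP) (by rw [Nat.card_zpowers, hx, hS11])
  set C := Subgroup.centralizer ((P : Subgroup G) : Set G) with hCdef
  have hPC : (P : Subgroup G) ≤ C := by
    haveI : IsCyclic (P : Subgroup G) := isCyclic_of_prime_card (hS11 P)
    haveI : IsMulCommutative (P : Subgroup G) := IsCyclic.isMulCommutative
    exact Subgroup.le_centralizer _
  -- orbits of `x`
  have horb : ∀ b : X, Nat.card (orbit (Subgroup.zpowers x) b) = 11 := by
    intro b
    have hd : Nat.card (orbit (Subgroup.zpowers x) b) ∣ 11 := by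
      rw [Nat.card_coe_set_eq, ← index_stabilizer]
      refine (Subgroup.index_dvd_card _).trans (dvd_of_eq ?_)
      rw [Nat.card_zpowers, hx]
    refine ((Nat.dvd_prime (by norm_num)).mp hd).resolve_left fun h1 => ?_
    have := (Nat.card_eq_one_iff_unique.mp h1).1
    have hxb : x • b = b := congrArg Subtype.val (@Subsingleton.elim _ this
      (⟨x • b, ⟨x, Subgroup.mem_zpowers x⟩, rfl⟩ : orbit (Subgroup.zpowers x) b)
      ⟨b, mem_orbit_self b⟩)
    obtain ⟨g, rfl⟩ := exists_smul_eq G a b
    have hmem : g⁻¹ * x * g ∈ S := by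
      rw [hSdef, mem_stabilizer_iff, mul_smul, mul_smul, hxb, inv_smul_smul]
    apply h11S
    have := Subgroup.orderOf_dvd_natCard S hmem
    rwa [show g⁻¹ * x * g = MulAut.conj g⁻¹ x by simp, (MulAut.conj g⁻¹).orderOf_eq, hx] at this
  have hCstab : ∀ t ∈ C, t • a = a → t = 1 := by
    intro t htC hta
    have hcomm : ∀ y ∈ Subgroup.zpowers x, y * t = t * y := fun y hy => htC y (hxgen ▸ hy)
    have hfix : ∀ z ∈ orbit (Subgroup.zpowers x) a, t • z = z := by
      rintro _ ⟨⟨y, hy⟩, rfl⟩
      show t • y • a = y • a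
      rw [← mul_smul, ← hcomm y hy, mul_smul, hta]
    have h11 : t ^ 11 = 1 := by
      refine eq_of_smul_eq_smul fun b : X => ?_
      rw [one_smul]
      by_cases hb : b ∈ orbit (Subgroup.zpowers x) a
      · have : ∀ n : ℕ, t ^ n • b = b := by
          intro n
          induction n with
          | zero => rw [pow_zero, one_smul]
          | succ n ih => rw [pow_succ, mul_smul, hfix b hb, ih]
        exact this 11
      · have hdis : Disjoint (orbit (Subgroup.zpowers x) a) (orbit (Subgroup.zpowers x) b) := by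
          rw [Set.disjoint_left]
          intro z hz hz'
          rw [← orbit_eq_iff] at hz hz' hb
          exact hb (hz'.symm.trans hz)
        have hun : orbit (Subgroup.zpowers x) a ∪ orbit (Subgroup.zpowers x) b = Set.univ := by
          apply Set.eq_of_subset_of_ncard_le (Set.subset_univ _) ?_ (Set.toFinite _)
          rw [Set.ncard_univ, Nat.card_eq_fintype_card, hX,
            Set.ncard_union_eq hdis (Set.toFinite _) (Set.toFinite _),
            ← Nat.card_coe_set_eq (orbit (Subgroup.zpowers x) a),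
            ← Nat.card_coe_set_eq (orbit (Subgroup.zpowers x) b), horb, horb]
        have htb : t • b ∈ orbit (Subgroup.zpowers x) b := by
          refine ((Set.mem_union _ _ _).mp (hun.symm ▸ Set.mem_univ (t • b))).resolve_left fun h => ?_
          exact hb (MulAction.injective t (hfix _ h) ▸ h)
        obtain ⟨⟨y, hy⟩, hyb⟩ := htb
        change y • b = t • b at hyb
        have hpow : ∀ n : ℕ, t ^ n • b = y ^ n • b := by
          intro n
          induction n with
          | zero => simp
          | succ n ih =>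
            rw [pow_succ', mul_smul, ih, ← mul_smul, ← hcomm _ (Subgroup.pow_mem _ hy n), mul_smul,
              ← hyb, ← mul_smul, ← pow_succ]
        rw [hpow]
        have := pow_card_eq_one' (G := Subgroup.zpowers x) (x := ⟨y, hy⟩)
        rw [Nat.card_zpowers, hx] at this
        rw [show y ^ 11 = 1 from congrArg Subtype.val this, one_smul]
    by_contra hne
    have hord : orderOf t = 11 := orderOf_eq_prime h11 hne
    exact h11S (hord ▸ Subgroup.orderOf_dvd_natCard S (hta : t ∈ S))
  have hCcard : Nat.card C = 11 ∨ Nat.card C = 22 := by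
    have hle : Nat.card C ≤ 22 := by
      rw [← hX, ← Nat.card_eq_fintype_card]
      refine Nat.card_le_card_of_injective (fun t : C => (t : G) • a) fun t u h => ?_
      change (t : G) • a = (u : G) • a at h
      have : ((u : G)⁻¹ * t) • a = a := by rw [mul_smul, h, inv_smul_smul]
      exact Subtype.ext (inv_mul_eq_one.mp (hCstab _ (C.mul_mem (C.inv_mem u.2) t.2) this)).symm
    have hd := Subgroup.card_dvd_of_le hPC
    rw [hS11] at hd
    have hpos : 0 < Nat.card C := Nat.card_pos
    omega
  set N := Subgroup.normalizer ((P : Subgroup G) : Set G) with hNdef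
  have hCN : C ≤ N := Subgroup.centralizer_le_normalizer _
  set d := (C.subgroupOf N).index with hd
  have hd10 : d ∣ 10 := by
    have key := Subgroup.card_dvd_of_injective _
      (QuotientGroup.kerLift_injective (P : Subgroup G).normalizerMonoidHom)
    haveI : IsCyclic (P : Subgroup G) := isCyclic_of_prime_card (hS11 P)
    rw [Subgroup.normalizerMonoidHom_ker, IsCyclic.card_mulAut, hS11 P,
      Nat.totient_prime (by norm_num)] at key
    exact key
  have hNc : Nat.card N = Nat.card C * d := by
    rw [hd, ← Nat.card_congr (Subgroup.subgroupOfEquivOfLe hCN).toEquiv]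
    exact (C.subgroupOf N).card_mul_index.symm
  have hn : Nat.card (Sylow 11 G) * Nat.card N = 22 * Nat.card S := by
    rw [P.card_eq_index_normalizer, ← hG, mul_comm]
    exact N.card_mul_index
  have hmod : Nat.card (Sylow 11 G) % 11 = 1 := card_sylow_modEq_one 11 G
  -- there are twelve Sylow 11-subgroups
  obtain ⟨k, hk20, hkN, hkC⟩ : ∃ k, k ∣ 20 ∧ Nat.card N = 11 * k ∧ (Nat.card C = 11 → k = d) := by
    rcases hCcard with h | h
    · exact ⟨d, hd10.trans (by norm_num), by rw [hNc, h], fun _ => rfl⟩
    · exact ⟨2 * d, Nat.mul_dvd_mul_left 2 hd10, by rw [hNc, h]; ring, fun e => by omega⟩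
  have hnk : Nat.card (Sylow 11 G) * k = 2 * Nat.card S := by
    rw [hkN] at hn
    have : 11 * (Nat.card (Sylow 11 G) * k) = 11 * (2 * Nat.card S) := by linarith
    omega
  have hk0 : 0 < k := Nat.pos_of_dvd_of_pos hk20 (by norm_num)
  have hdiv : 2 * Nat.card S / k = Nat.card (Sylow 11 G) := by
    rw [← hnk, Nat.mul_div_cancel _ hk0]
  obtain ⟨h12, hk10⟩ := eleven_decide _ hs k (Nat.mem_divisors.mpr ⟨hk20, by norm_num⟩)
    (Dvd.intro_left _ hnk) (hdiv.symm ▸ hmod)
  rw [hdiv] at h12
  haveI := Fintype.ofFinite (Sylow 11 G)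
  -- the action on the twelve Sylow subgroups is faithful
  set φ := toPermHom G (Sylow 11 G) with hφ
  have hfaith : φ.ker = ⊥ := by
    by_contra hne
    set K := φ.ker
    haveI : K.Normal := MonoidHom.normal_ker φ
    have htop : K ⊔ S = ⊤ := c.stab_max hX a _ le_sup_right fun e =>
      hne (normal_fix (X := X) K a (le_sup_left.trans e.le))
    have hKorb : orbit K a = Set.univ := by
      refine Set.eq_univ_of_forall fun b => ?_
      obtain ⟨g, rfl⟩ := exists_smul_eq G a b
      obtain ⟨k', hk', s, hs', rfl⟩ := Subgroup.mem_sup_of_normal_left.mp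
        (htop.symm ▸ Subgroup.mem_top g : g ∈ K ⊔ S)
      exact ⟨⟨k', hk'⟩, by rw [mul_smul, (hs' : s • a = a)]; rfl⟩
    have h11K : 11 ∣ Nat.card K := by
      have := (stabilizer K a).index_dvd_card
      rw [index_stabilizer, hKorb, Set.ncard_univ, Nat.card_eq_fintype_card, hX] at this
      exact dvd_trans (by norm_num) this
    obtain ⟨z, hz⟩ := exists_prime_orderOf_dvd_card' (G := K) 11 h11K
    rw [← Subgroup.orderOf_coe] at hz
    have hle : ∀ Q : Sylow 11 G, Subgroup.zpowers (z : G) = (Q : Subgroup G) := by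
      intro Q
      have hzN : (z : G) ∈ Subgroup.normalizer (Q : Set G) :=
        Sylow.smul_eq_iff_mem_normalizer.mp (DFunLike.congr_fun (MonoidHom.mem_ker.mp z.2) Q)
      have hp : IsPGroup 11 (Subgroup.zpowers (z : G)) :=
        IsPGroup.of_card (n := 1) (by rw [Nat.card_zpowers, hz, pow_one])
      have h : Subgroup.zpowers (z : G) ≤ Subgroup.zpowers (z : G) ⊓
          Subgroup.normalizer (Q : Set G) :=
        le_inf le_rfl (Subgroup.zpowers_le.mpr hzN)
      rw [hp.inf_normalizer_sylow] at h
      exact Subgroup.eq_of_le_of_card_ge (h.trans inf_le_right)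
        (by rw [Nat.card_zpowers, hz, hS11])
    have : Subsingleton (Sylow 11 G) :=
      ⟨fun Q R => Sylow.ext ((hle Q).symm.trans (hle R))⟩
    rw [Nat.card_of_subsingleton P] at h12
    norm_num at h12
  have hφinj : Function.Injective φ := (MonoidHom.ker_eq_bot_iff φ).mp hfaith
  -- orbit of `x` on the other eleven
  have horb2 : ∀ Q Q' : Sylow 11 G, Q ≠ P → Q' ≠ P → ∃ y ∈ Subgroup.zpowers x, y • Q = Q' := by
    intro Q Q' hQ hQ'
    have hd' : Nat.card (orbit (Subgroup.zpowers x) Q) ∣ 11 := by
      rw [Nat.card_coe_set_eq, ← index_stabilizer]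
      refine (Subgroup.index_dvd_card _).trans (dvd_of_eq ?_)
      rw [Nat.card_zpowers, hx]
    rcases (Nat.dvd_prime (by norm_num)).mp hd' with h1 | h1
    · exfalso
      have := (Nat.card_eq_one_iff_unique.mp h1).1
      have hxQ : x • Q = Q := congrArg Subtype.val (@Subsingleton.elim _ this
        (⟨x • Q, ⟨x, Subgroup.mem_zpowers x⟩, rfl⟩ : orbit (Subgroup.zpowers x) Q)
        ⟨Q, mem_orbit_self Q⟩)
      have h : (P : Subgroup G) ≤ (P : Subgroup G) ⊓ Subgroup.normalizer (Q : Set G) :=
        le_inf le_rfl (hxgen ▸ Subgroup.zpowers_le.mpr (Sylow.smul_eq_iff_mem_normalizer.mp hxQ))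
      rw [P.2.inf_normalizer_sylow] at h
      exact hQ (Sylow.ext (P.3 Q.2 (h.trans inf_le_right)))
    · have hPo : P ∉ orbit (Subgroup.zpowers x) Q := by
        rintro ⟨⟨y, hy⟩, hyQ⟩
        apply hQ
        change y • Q = P at hyQ
        have hyP : y • P = P := Sylow.smul_eq_iff_mem_normalizer.mpr
          (Subgroup.le_normalizer (hxgen ▸ hy))
        exact MulAction.injective y (hyQ.trans hyP.symm)
      have hun : insert P (orbit (Subgroup.zpowers x) Q) = Set.univ := by
        apply Set.eq_of_subset_of_ncard_le (Set.subset_univ _) ?_ (Set.toFinite _)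
        rw [Set.ncard_univ, h12, Set.ncard_insert_of_notMem hPo (Set.toFinite _),
          ← Nat.card_coe_set_eq (orbit (Subgroup.zpowers x) Q), h1]
      have := (Set.mem_insert_iff.mp (hun.symm ▸ Set.mem_univ Q')).resolve_left hQ'
      obtain ⟨⟨y, hy⟩, hyQ⟩ := this
      exact ⟨y, hy, hyQ⟩
  have hC11 : Nat.card C = 11 := by
    refine hCcard.resolve_right fun h22 => ?_
    haveI : Fact (Nat.Prime 2) := ⟨Nat.prime_two⟩
    obtain ⟨⟨t, htC⟩, ht⟩ := exists_prime_orderOf_dvd_card' (G := C) 2 (by rw [h22]; norm_num)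
    rw [← Subgroup.orderOf_coe] at ht
    change orderOf t = 2 at ht
    have hcomm : ∀ y ∈ Subgroup.zpowers x, y * t = t * y := fun y hy => htC y (hxgen ▸ hy)
    have htP : t • P = P := Sylow.smul_eq_iff_mem_normalizer.mpr (hCN htC)
    have h1 : t = 1 := hφinj (by
      rw [map_one]
      refine Equiv.ext fun Q => ?_
      show t • Q = Q
      by_cases hQ : Q = P
      · rw [hQ, htP]
      have htQ : t • Q ≠ P := fun e => hQ (MulAction.injective t (e.trans htP.symm))
      obtain ⟨y, hy, hyQ⟩ := horb2 Q _ hQ htQ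
      have hy2 : y ^ 2 • Q = Q := by
        rw [pow_two, mul_smul, hyQ, ← mul_smul, hcomm y hy, mul_smul, hyQ, ← mul_smul, ← pow_two,
          ← ht, pow_orderOf_eq_one, one_smul]
      have hy11 : y ^ 11 = 1 := by
        have := pow_card_eq_one' (G := Subgroup.zpowers x) (x := ⟨y, hy⟩)
        rw [Nat.card_zpowers, hx] at this
        exact congrArg Subtype.val this
      have : y = (y ^ 2) ^ 6 := by
        rw [← pow_mul, show 2 * 6 = 11 + 1 from rfl, pow_succ, hy11, one_mul]
      have hfix : ∀ n : ℕ, (y ^ 2) ^ n • Q = Q := by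
        intro n
        induction n with
        | zero => rw [pow_zero, one_smul]
        | succ n ih => rw [pow_succ, mul_smul, hy2, ih]
      rw [← hyQ, this, hfix])
    rw [h1, orderOf_one] at ht
    norm_num at ht
  have hkd : k = d := hkC hC11
  have hk12 : k = 1 ∨ k = 2 := hk10 (hkd ▸ hd10)
  have hGk : Nat.card G = 132 * k := by rw [hG]; rw [h12] at hnk; omega
  -- a subgroup of order 132 containing all elements of order 3 or 11
  obtain ⟨L, hL, hodd⟩ : ∃ L : Subgroup G, Nat.card L = 132 ∧ ∀ g, Odd (orderOf g) → g ∈ L := by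
    rcases hk12 with hk1 | hk2
    · exact ⟨⊤, by rw [Subgroup.card_top, hGk, hk1], fun g _ => Subgroup.mem_top g⟩
    set sgn := Equiv.Perm.sign.comp φ with hsgn
    refine ⟨sgn.ker, ?_, fun g hg => MonoidHom.mem_ker.mpr (hom_odd sgn g hg)⟩
    haveI : Fact (Nat.Prime 2) := ⟨Nat.prime_two⟩
    obtain ⟨⟨t, htN⟩, ht⟩ := exists_prime_orderOf_dvd_card' (G := N) 2
      (by rw [hkN, hk2]; norm_num)
    rw [← Subgroup.orderOf_coe] at ht
    change orderOf t = 2 at ht
    have htC : t ∉ C := fun h => by
      have := Subgroup.orderOf_dvd_natCard C h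
      rw [ht, hC11] at this
      norm_num at this
    have ht2 : t * t = 1 := by rw [← pow_two, ← ht, pow_orderOf_eq_one]
    -- `t` inverts `x`
    have htinv : t * x * t⁻¹ = x⁻¹ := by
      have hmem : t * x * t⁻¹ ∈ Subgroup.zpowers x := by
        rw [hxgen]
        exact (Subgroup.mem_normalizer_iff.mp htN x).mp hxP
      obtain ⟨r, hr⟩ := hmem
      change x ^ r = t * x * t⁻¹ at hr
      have hrr : x ^ (r * r) = x := by
        rw [zpow_mul, hr, conj_zpow, hr]
        calc t * (t * x * t⁻¹) * t⁻¹ = (t * t) * x * (t * t)⁻¹ := by group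
          _ = x := by rw [ht2]; simp
      have h1 : x ^ ((r - 1) * (r + 1)) = 1 := by
        rw [show (r - 1) * (r + 1) = r * r - 1 by ring, zpow_sub_one, hrr, mul_inv_cancel]
      rw [← orderOf_dvd_iff_zpow_eq_one, hx] at h1
      rcases (Nat.prime_iff_prime_int.mp (by norm_num : Nat.Prime 11)).dvd_mul.mp h1 with h | h
      · exfalso
        have hxr : x ^ r = x := by
          have e : x ^ (r - 1) = 1 := orderOf_dvd_iff_zpow_eq_one.mp (by rw [hx]; exact h)
          rw [zpow_sub_one, mul_inv_eq_one] at e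
          exact e
        apply htC
        intro y hy
        obtain ⟨i, rfl⟩ := (hxgen.symm ▸ hy : y ∈ Subgroup.zpowers x)
        show x ^ i * t = t * x ^ i
        have hc : Commute t x := mul_inv_eq_iff_eq_mul.mp (hr.symm.trans hxr)
        exact (hc.zpow_right i).eq.symm
      · have e : x ^ (r + 1) = 1 := orderOf_dvd_iff_zpow_eq_one.mp (by rw [hx]; exact h)
        rw [zpow_add_one] at e
        rw [← hr]
        exact eq_inv_of_mul_eq_one_left e
    obtain ⟨Q₁, hQ₁⟩ : ∃ Q : Sylow 11 G, Q ≠ P := by
      haveI : Nontrivial (Sylow 11 G) := Finite.one_lt_card_iff_nontrivial.mp (by omega)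
      exact exists_ne P
    have htP : t • P = P := Sylow.smul_eq_iff_mem_normalizer.mpr htN
    obtain ⟨y, hy, hyQ⟩ := horb2 Q₁ (t • Q₁) hQ₁
      (fun e => hQ₁ (MulAction.injective t (e.trans htP.symm)))
    obtain ⟨e, rfl⟩ := hy
    change x ^ e • Q₁ = t • Q₁ at hyQ
    have hact : ∀ i : ℤ, t • x ^ i • Q₁ = x ^ (e - i) • Q₁ := by
      intro i
      have : t * x ^ i = x ^ (-i) * t := by
        calc t * x ^ i = (t * x * t⁻¹) ^ i * t := by rw [conj_zpow, inv_mul_cancel_right]
          _ = x ^ (-i) * t := by rw [htinv, inv_zpow, zpow_neg]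
      rw [← mul_smul, this, mul_smul, ← hyQ, ← mul_smul, ← zpow_add, neg_add_eq_sub]
    have hsame : ∀ i j : ℤ, x ^ i • Q₁ = x ^ j • Q₁ → (11 : ℤ) ∣ i - j := by
      intro i j h
      by_contra hnd
      have hfix : x ^ (i - j) • Q₁ = Q₁ := by
        rw [show i - j = -j + i by ring, zpow_add, mul_smul, h, ← mul_smul, ← zpow_add,
          neg_add_cancel, zpow_zero, one_smul]
      apply hQ₁
      have hgen : Subgroup.zpowers (x ^ (i - j)) = Subgroup.zpowers x := by
        refine Subgroup.eq_of_le_of_card_ge (Subgroup.zpowers_le.mpr ⟨i - j, rfl⟩) ?_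
        rw [Nat.card_zpowers, Nat.card_zpowers, hx, orderOf_eq_prime (p := 11)]
        · rw [← zpow_natCast, ← zpow_mul, ← orderOf_dvd_iff_zpow_eq_one, hx]
          exact dvd_mul_left _ _
        · intro e1
          rw [← orderOf_dvd_iff_zpow_eq_one, hx] at e1
          exact hnd e1
      have h' : (P : Subgroup G) ≤ (P : Subgroup G) ⊓ Subgroup.normalizer (Q₁ : Set G) :=
        le_inf le_rfl (by
          rw [← hxgen, ← hgen]
          exact Subgroup.zpowers_le.mpr (Sylow.smul_eq_iff_mem_normalizer.mp hfix))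
      rw [P.2.inf_normalizer_sylow] at h'
      exact Sylow.ext (P.3 Q₁.2 (h'.trans inf_le_right))
    have hfixset : Function.fixedPoints (φ t) = {P, x ^ (6 * e) • Q₁} := by
      ext Q
      show t • Q = Q ↔ _
      simp only [Set.mem_insert_iff, Set.mem_singleton_iff]
      constructor
      · intro hQ
        by_cases hQP : Q = P
        · exact Or.inl hQP
        refine Or.inr ?_
        obtain ⟨y, hy, hyQ⟩ := horb2 Q₁ Q hQ₁ hQP
        obtain ⟨i, rfl⟩ := hy
        change x ^ i • Q₁ = Q at hyQ
        have h2 : (11 : ℤ) ∣ e - i - i := hsame _ _ (by rw [← hact, hyQ, hQ])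
        have h6 : (11 : ℤ) ∣ i - 6 * e := by omega
        have : x ^ (i - 6 * e) = 1 := orderOf_dvd_iff_zpow_eq_one.mp (by rw [hx]; exact h6)
        rw [← hyQ]
        rw [zpow_sub, mul_inv_eq_one] at this
        rw [this]
      · rintro (rfl | rfl)
        · exact htP
        · rw [hact]
          have : x ^ (e - 6 * e - 6 * e) = 1 :=
            orderOf_dvd_iff_zpow_eq_one.mp (by rw [hx]; omega)
          rw [zpow_sub, mul_inv_eq_one] at this
          rw [this]
    have hfixcard : Fintype.card (Function.fixedPoints (φ t)) = 2 := by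
      rw [← Nat.card_eq_fintype_card, Nat.card_coe_set_eq, hfixset, Set.ncard_pair]
      intro e1
      apply hQ₁
      have : x ^ (6 * e) • P = P := Sylow.smul_eq_iff_mem_normalizer.mpr
        (Subgroup.le_normalizer (hxgen ▸ ⟨_, rfl⟩))
      exact (MulAction.injective (x ^ (6 * e)) (this.trans e1)).symm
    have hsgnt : sgn t = -1 := by
      show Equiv.Perm.sign (φ t) = -1
      rw [Equiv.Perm.sign_of_pow_two_eq_one (σ := φ t) (by rw [← map_pow, pow_two, ht2, map_one]),
        hfixcard, ← Nat.card_eq_fintype_card, h12]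
      decide
    have hrange : Nat.card sgn.range = 2 := by
      have h1 : Nat.card sgn.range ∣ 2 := by
        refine (Subgroup.card_subgroup_dvd_card _).trans ?_
        rw [Nat.card_eq_fintype_card, Fintype.card_units_int]
      refine ((Nat.dvd_prime Nat.prime_two).mp h1).resolve_left fun h => ?_
      have := Subgroup.card_eq_one.mp h
      have h' : sgn t ∈ sgn.range := ⟨t, rfl⟩
      rw [this, Subgroup.mem_bot, hsgnt] at h'
      exact absurd h' (by decide)
    have := sgn.ker.card_mul_index
    rw [Subgroup.index_ker, hrange, hGk, hk2] at this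
    omega
  -- too many elements of order 3 and 11
  have h3 := c.card_P_eq_three hX
  have hA3 := prime_subgroups_elements c.P (p := 3) h3 fun b b' hbb' =>
    (c.fix b b' fun g hg => (c.le_stab b' (hbb' ▸ hg) : g • b' = b')).symm
  have hA11 := sylow_elements hS11
  rw [h12] at hA11
  rw [Nat.card_eq_fintype_card, hX] at hA3
  have hsum : Nat.card ({g : G // orderOf g = 3} ⊕ {g : G // orderOf g = 11}) ≤ Nat.card L := by
    refine Nat.card_le_card_of_injective
      (Sum.elim (fun g => ⟨g.1, hodd g.1 (by rw [g.2]; decide)⟩)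
        (fun g => ⟨g.1, hodd g.1 (by rw [g.2]; decide)⟩)) ?_
    rintro (⟨u, hu⟩ | ⟨u, hu⟩) (⟨v, hv⟩ | ⟨v, hv⟩) h <;>
      (have huv : u = v := congrArg (fun z : L => (z : G)) h) <;> subst huv <;>
      first | rfl | (rw [hu] at hv; norm_num at hv)
  rw [Nat.card_sum, hL] at hsum
  omega

end Ctx

theorem no_twentytwo {G : Type*} [Group G] [Finite G] : Nat.card (Sylow 3 G) ≠ 22 := by
  classical
  intro hn
  haveI : Fact (Nat.Prime 3) := ⟨by norm_num⟩
  haveI := Fintype.ofFinite (Sylow 3 G)
  let φ := toPermHom G (Sylow 3 G)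
  let H := φ.range
  let P : Sylow 3 G → Subgroup H := fun a => (a : Subgroup G).map φ.rangeRestrict
  haveI : IsPretransitive H (Sylow 3 G) := ⟨fun a b => by
    obtain ⟨g, hg⟩ := exists_smul_eq G a b
    exact ⟨φ.rangeRestrict g, hg⟩⟩
  haveI : FaithfulSMul H (Sylow 3 G) := ⟨fun {h h'} e => Subtype.ext (Equiv.ext e)⟩
  have hsurj : Function.Surjective φ.rangeRestrict := φ.rangeRestrict_surjective
  have c : Ctx H (Sylow 3 G) :=
    { P := P
      le_stab := by
        rintro a _ ⟨g, hg, rfl⟩
        exact (Sylow.smul_eq_iff_mem_normalizer.mpr (Subgroup.le_normalizer hg) : g • a = a)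
      p3 := fun a => a.2.map _
      maxp := by
        intro a K hK hKp
        have hN : K ≤ Subgroup.normalizer (P a : Set H) := by
          intro k hk
          obtain ⟨g, rfl⟩ := hsurj k
          have hga : g • a = a := hK hk
          exact Subgroup.le_normalizer_map _ ⟨g, Sylow.smul_eq_iff_mem_normalizer.mp hga, rfl⟩
        let S' : Sylow 3 H := a.mapSurjective hsurj
        have hS' : (S' : Subgroup H) = P a := rfl
        have hp : IsPGroup 3 (K ⊔ P a : Subgroup H) :=
          hKp.to_sup_of_normal_right' (a.2.map _) hN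
        exact le_sup_left.trans (S'.3 hp (hS' ▸ le_sup_right)).le
      fix := by
        intro a b h
        have hle : (a : Subgroup G) ≤ Subgroup.normalizer (b : Set G) := fun g hg =>
          Sylow.smul_eq_iff_mem_normalizer.mp (h (φ.rangeRestrict g) ⟨g, hg, rfl⟩)
        have h' : (a : Subgroup G) ≤ (a : Subgroup G) ⊓ Subgroup.normalizer (b : Set G) :=
          le_inf le_rfl hle
        rw [a.2.inf_normalizer_sylow] at h'
        exact Sylow.ext (a.3 b.2 (h'.trans inf_le_right)) }
  exact c.false_of_faithful (by rw [← Nat.card_eq_fintype_card, hn])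

end CfsgLib.SylowCount22
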