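import Mathlib

set_option autoImplicit false
set_option linter.style.haveILetI false

namespace CfsgLib.SylowCount15

instance fact7 : Fact (Nat.Prime 7) := ⟨by norm_num⟩
instance fact5 : Fact (Nat.Prime 5) := ⟨by norm_num⟩

theorem card_sylow_eq {G : Type*} [Group G] [Finite G] (P Q : Sylow 7 G) :
    Nat.card (P : Subgroup G) = Nat.card (Q : Subgroup G) :=
  Nat.card_congr (Sylow.equiv P Q).toEquiv

theorem pow_seven {G : Type*} [Group G] (P : Subgroup G) (h : Nat.card P = 7) {x : G}
    (hx : x ∈ P) : x ^ 7 = 1 := by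
  have := pow_card_eq_one' (G := P) (x := ⟨x, hx⟩)
  rw [h] at this
  simpa using congrArg Subtype.val this

theorem prime_le_centralizer {G : Type*} [Group G] {p : ℕ} [Fact p.Prime] (P : Subgroup G)
    (h : Nat.card P = p) : P ≤ Subgroup.centralizer (P : Set G) := by
  haveI : IsCyclic P := isCyclic_of_prime_card h
  haveI : IsMulCommutative P := IsCyclic.isMulCommutative
  exact P.le_centralizer

theorem card_mul_relIndex {G : Type*} [Group G] {H K : Subgroup G} (h : H ≤ K) :
    Nat.card H * H.relIndex K = Nat.card K := by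
  have h1 := Subgroup.card_mul_index (H.subgroupOf K)
  rw [Nat.card_congr (Subgroup.subgroupOfEquivOfLe h).toEquiv] at h1
  exact h1

/-- `N(S)/C(S)` has order dividing `p - 1` when `|S| = p`. -/
theorem relIndex_dvd_totient {G : Type*} [Group G] [Finite G] {p : ℕ} [Fact p.Prime]
    (S : Subgroup G) (h : Nat.card S = p) :
    (Subgroup.centralizer (S : Set G)).relIndex (Subgroup.normalizer (S : Set G)) ∣ p - 1 := by
  have key := Subgroup.card_dvd_of_injective _
    (QuotientGroup.kerLift_injective S.normalizerMonoidHom)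
  rw [Subgroup.normalizerMonoidHom_ker] at key
  haveI : IsCyclic S := isCyclic_of_prime_card h
  rw [IsCyclic.card_mulAut, h, Nat.totient_prime Fact.out] at key
  exact key

/-- Sylow subgroups contained in a subgroup. -/
noncomputable def sylowEquiv {G : Type*} [Group G] [Finite G] (K : Subgroup G)
    (h : ∀ P : Sylow 7 G, (P : Subgroup G) ≤ K) : Sylow 7 G ≃ Sylow 7 K := by
  refine Equiv.ofBijective (fun P => P.subtype (h P))
    ⟨fun P Q e => Sylow.subtype_injective e, ?_⟩
  intro R
  obtain ⟨Q, hQ⟩ := R.exists_comap_subtype_eq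
  exact ⟨Q, Sylow.ext hQ⟩

theorem sylow_sub {G : Type*} [Group G] [Finite G] (K : Subgroup G)
    (h : ∀ P : Sylow 7 G, (P : Subgroup G) ≤ K) (R : Sylow 7 K) :
    ∃ Q : Sylow 7 G, (R : Subgroup K) = (Q : Subgroup G).subgroupOf K ∧
      Nat.card (R : Subgroup K) = Nat.card (Q : Subgroup G) := by
  obtain ⟨Q, hQ⟩ := R.exists_comap_subtype_eq
  refine ⟨Q, hQ.symm, ?_⟩
  rw [← hQ]
  exact Nat.card_congr (Subgroup.subgroupOfEquivOfLe (h Q)).toEquiv

theorem centralizer_sub {G : Type*} [Group G] (K P : Subgroup G) (h : P ≤ K) (R : Subgroup K)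
    (hR : R = P.subgroupOf K) {x : K} (hx : x ∈ Subgroup.centralizer (R : Set K)) :
    (x : G) ∈ Subgroup.centralizer (P : Set G) := by
  intro y hy
  have hy' : (⟨y, h hy⟩ : K) ∈ (R : Set K) := by
    rw [SetLike.mem_coe, hR, Subgroup.mem_subgroupOf]; exact hy
  exact congrArg Subtype.val (hx _ hy')

/-- Burnside at the prime 5. -/
theorem burnside_case {G : Type*} [Group G] [Finite G] (S : Sylow 5 G)
    (hS : Nat.card (S : Subgroup G) = 5) (hN : Nat.card (Sylow 7 G) = 15)
    (h7 : ∀ P : Sylow 7 G, Nat.card (P : Subgroup G) = 7)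
    (hc : ¬ 15 ∣ (Nat.card G / 5))
    (hle : Subgroup.normalizer (S : Set G) ≤ Subgroup.centralizer (S : Set G)) : False := by
  have hcompl := MonoidHom.ker_transferSylow_isComplement' S hle
  set K := (MonoidHom.transferSylow S hle).ker with hKdef
  have hK : Nat.card K * 5 = Nat.card G := by
    have := hcompl.card_mul
    rwa [hS] at this
  have hidx : K.index = 5 := by
    rw [hcompl.symm.index_eq_card]
    exact hS
  haveI : K.Normal := MonoidHom.normal_ker _
  have hle7 : ∀ P : Sylow 7 G, (P : Subgroup G) ≤ K := by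
    intro P x hx
    have h1 : x ^ K.index ∈ K := Subgroup.pow_index_mem K x
    rw [hidx] at h1
    have : x = (x ^ 5) ^ 3 := by
      rw [← pow_mul, show 5 * 3 = 7 * 2 + 1 from rfl, pow_add, pow_mul,
        pow_seven _ (h7 P) hx, one_pow, one_mul, pow_one]
    rw [this]
    exact K.pow_mem h1 3
  have P : Sylow 7 K := default
  have := P.card_dvd_index
  rw [← Nat.card_congr (sylowEquiv K hle7), hN] at this
  apply hc
  rw [← hK, Nat.mul_div_cancel _ (by norm_num)]
  exact this.trans (P : Subgroup K).index_dvd_card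

theorem order_eq {G : Type*} [Group G] [Finite G]
    (hn : Nat.card (Sylow 7 G) = 15) (h7 : ∀ P : Sylow 7 G, Nat.card (P : Subgroup G) = 7)
    (hC : ∀ P : Sylow 7 G, Subgroup.centralizer ((P : Subgroup G) : Set G) ≤ P) :
    ∃ d, d ∣ 6 ∧ Nat.card G = 105 * d := by
  have P : Sylow 7 G := default
  set N := Subgroup.normalizer ((P : Subgroup G) : Set G) with hNdef
  have hidx : N.index = 15 := by rw [← hn]; exact P.card_eq_index_normalizer.symm
  have hG : Nat.card N * 15 = Nat.card G := by rw [← hidx]; exact N.card_mul_index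
  have hd := relIndex_dvd_totient (P : Subgroup G) (h7 P)
  rw [le_antisymm (hC P) (prime_le_centralizer _ (h7 P))] at hd
  have hmul := card_mul_relIndex (H := (P : Subgroup G)) (K := N) Subgroup.le_normalizer
  rw [h7 P] at hmul
  exact ⟨_, hd, by rw [← hG, ← hmul]; ring⟩

/-- The arithmetic part, odd order. -/
theorem no_odd {G : Type*} [Group G] [Finite G] (hodd : Odd (Nat.card G))
    (hn : Nat.card (Sylow 7 G) = 15) (h7 : ∀ P : Sylow 7 G, Nat.card (P : Subgroup G) = 7)
    (hC : ∀ P : Sylow 7 G, Subgroup.centralizer ((P : Subgroup G) : Set G) ≤ P) : False := by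
  obtain ⟨d, hd6, hcard⟩ := order_eq hn h7 hC
  have hd13 : d = 1 ∨ d = 3 := by
    have : d ≤ 6 := Nat.le_of_dvd (by norm_num) hd6
    rw [hcard, Nat.odd_mul] at hodd
    obtain ⟨-, k, hk⟩ := hodd
    interval_cases d <;> omega
  have S : Sylow 5 G := default
  have hS : Nat.card (S : Subgroup G) = 5 := by
    obtain ⟨k, hk⟩ := S.2.exists_card_eq
    have h2 := S.dvd_card_of_dvd_card (hcard ▸ Dvd.dvd.mul_right (by norm_num) _)
    have hdvd : 5 ^ k ∣ Nat.card G := hk ▸ (S : Subgroup G).card_subgroup_dvd_card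
    have hk1 : k ≤ 1 := by
      by_contra hk2
      have := dvd_trans (pow_dvd_pow 5 (show 2 ≤ k by omega)) hdvd
      rw [hcard] at this
      rcases hd13 with h | h <;> subst h <;> norm_num at this
    interval_cases k
    · rw [hk] at h2; norm_num at h2
    · simpa using hk
  have hidxS : (S : Subgroup G).index = 21 * d := by
    have := (S : Subgroup G).card_mul_index
    rw [hS, hcard] at this
    omega
  have h5d : Nat.card (Sylow 5 G) ∣ 21 * d := hidxS ▸ S.card_dvd_index
  have h5m : Nat.card (Sylow 5 G) % 5 = 1 := card_sylow_modEq_one 5 G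
  have hcase : Nat.card (Sylow 5 G) = 1 ∨ Nat.card (Sylow 5 G) = 21 := by
    have hle : Nat.card (Sylow 5 G) ≤ 63 :=
      (Nat.le_of_dvd (by omega) h5d).trans (by omega)
    generalize Nat.card (Sylow 5 G) = m at h5d h5m hle
    rcases hd13 with h | h <;> subst h <;> interval_cases m <;> omega
  have hNS : Nat.card (Subgroup.normalizer ((S : Subgroup G) : Set G)) * Nat.card (Sylow 5 G)
      = Nat.card G := by
    rw [S.card_eq_index_normalizer]; exact Subgroup.card_mul_index _
  have hrel := relIndex_dvd_totient (S : Subgroup G) hS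
  rcases hcase with h1 | h21
  · haveI : Subsingleton (Sylow 5 G) := (Nat.card_eq_one_iff_unique.mp h1).1
    haveI := S.normal_of_subsingleton
    rw [Subgroup.normalizer_eq_top, Subgroup.relIndex_top_right] at hrel
    set C := Subgroup.centralizer ((S : Subgroup G) : Set G)
    obtain ⟨j, hj⟩ := hrel
    have P : Sylow 7 G := default
    have hPC : (P : Subgroup G) ≤ C := by
      intro x hx
      have hi : x ^ C.index ∈ C := Subgroup.pow_index_mem C x
      have h4 : x ^ 4 ∈ C := by
        rw [show (4 : ℕ) = C.index * j from hj, pow_mul]; exact C.pow_mem hi j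
      have : x = (x ^ 4) ^ 2 := by
        rw [← pow_mul, show 4 * 2 = 7 + 1 from rfl, pow_add, pow_seven _ (h7 P) hx, one_mul,
          pow_one]
      rw [this]; exact C.pow_mem h4 2
    have hSP : (S : Subgroup G) ≤ P := (Subgroup.le_centralizer_iff.mp hPC).trans (hC P)
    have := Subgroup.card_dvd_of_le hSP
    rw [hS, h7 P] at this
    norm_num at this
  · refine burnside_case S hS hn h7 ?_ ?_
    · rw [hcard]; rcases hd13 with h | h <;> subst h <;> norm_num
    · have h2 := Subgroup.relIndex_dvd_of_le_left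
        (Subgroup.normalizer ((S : Subgroup G) : Set G)) (prime_le_centralizer _ hS)
      refine Subgroup.relIndex_eq_one.mp (Nat.eq_one_of_dvd_coprimes ?_ h2 hrel)
      have hmulS := card_mul_relIndex
        (H := (S : Subgroup G)) (K := Subgroup.normalizer ((S : Subgroup G) : Set G))
        Subgroup.le_normalizer
      rw [h21, ← hmulS, hS, hcard] at hNS
      generalize (S : Subgroup G).relIndex (Subgroup.normalizer ((S : Subgroup G) : Set G)) = e
        at hNS
      have : e = d := by omega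
      subst this
      rcases hd13 with h | h <;> subst h <;> decide

/-- The arithmetic part. -/
theorem no_small {G : Type*} [Group G] [Finite G]
    (hn : Nat.card (Sylow 7 G) = 15) (h7 : ∀ P : Sylow 7 G, Nat.card (P : Subgroup G) = 7)
    (hC : ∀ P : Sylow 7 G, Subgroup.centralizer ((P : Subgroup G) : Set G) ≤ P) : False := by
  by_cases hev : 2 ∣ Nat.card G
  swap
  · exact no_odd (Nat.not_even_iff_odd.mp (fun h => hev (even_iff_two_dvd.mp h))) hn h7 hC
  obtain ⟨d, hd, hcard⟩ := order_eq hn h7 hC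
  have h4 : ¬ 4 ∣ Nat.card G := by
    rw [hcard]
    have : d ≤ 6 := Nat.le_of_dvd (by norm_num) hd
    intro h
    interval_cases d <;> omega
  haveI : Fact (Nat.Prime 2) := ⟨Nat.prime_two⟩
  have T : Sylow 2 G := default
  have hT : Nat.card (T : Subgroup G) = 2 := by
    obtain ⟨k, hk⟩ := T.2.exists_card_eq
    have h2 := T.dvd_card_of_dvd_card hev
    have hdvd : 2 ^ k ∣ Nat.card G := hk ▸ (T : Subgroup G).card_subgroup_dvd_card
    have hk1 : k ≤ 1 := by
      by_contra hk2
      exact h4 (dvd_trans (pow_dvd_pow 2 (show 2 ≤ k by omega)) hdvd)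
    interval_cases k
    · rw [hk] at h2; norm_num at h2
    · simpa using hk
  have hmin : (Nat.card G).minFac = 2 := (Nat.minFac_eq_two_iff _).mpr hev
  have hcyc : IsCyclic (T : Subgroup G) := isCyclic_of_prime_card hT
  have hle := hcyc.normalizer_le_centralizer hmin
  have hcompl := MonoidHom.ker_transferSylow_isComplement' T hle
  have hnd := MonoidHom.not_dvd_card_ker_transferSylow T hle
  set K := (MonoidHom.transferSylow T hle).ker with hKdef
  haveI : K.Normal := MonoidHom.normal_ker _
  have hKi : K.index = 2 := by rw [hcompl.symm.index_eq_card]; exact hT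
  have hle7 : ∀ Q : Sylow 7 G, (Q : Subgroup G) ≤ K := by
    intro Q x hx
    have hi : x ^ K.index ∈ K := Subgroup.pow_index_mem K x
    rw [hKi] at hi
    have : x = (x ^ 2) ^ 4 := by
      rw [← pow_mul, show 2 * 4 = 7 + 1 from rfl, pow_add, pow_seven _ (h7 Q) hx, one_mul, pow_one]
    rw [this]; exact K.pow_mem hi 4
  refine no_odd (G := K)
    (Nat.not_even_iff_odd.mp (fun h => hnd (even_iff_two_dvd.mp h))) ?_ ?_ ?_
  · rw [← Nat.card_congr (sylowEquiv K hle7), hn]
  · intro R
    obtain ⟨Q, -, hQ⟩ := sylow_sub K hle7 R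
    rw [hQ, h7 Q]
  · intro R
    obtain ⟨Q, hRQ, -⟩ := sylow_sub K hle7 R
    intro x hx
    rw [hRQ, Subgroup.mem_subgroupOf]
    exact hC Q (centralizer_sub K _ (hle7 Q) _ hRQ hx)

end CfsgLib.SylowCount15
namespace CfsgLib.SylowCount15
open MulAction
section Faithful
variable {G : Type*} [Group G] [Finite G]

theorem not_mem_orbit (P Q : Sylow 7 G) (hne : Q ≠ P) : P ∉ orbit (P : Subgroup G) Q := by
  rintro ⟨x, hx⟩
  apply hne
  have hxQ : x⁻¹ • P = Q := inv_smul_eq_iff.mpr hx.symm
  rw [← hxQ]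
  exact Sylow.smul_eq_iff_mem_normalizer.mpr (Subgroup.le_normalizer (x⁻¹).2)

theorem stab_eq (P Q : Sylow 7 G) :
    stabilizer (P : Subgroup G) Q = (Q : Subgroup G).subgroupOf P := by
  ext x
  rw [mem_stabilizer_iff, Subgroup.mem_subgroupOf]
  change (x : G) • Q = Q ↔ _
  rw [Sylow.smul_eq_iff_mem_normalizer]
  constructor
  · intro h
    have : (x : G) ∈ (P : Subgroup G) ⊓ Subgroup.normalizer (Q : Set G) := ⟨x.2, h⟩
    rw [P.2.inf_normalizer_sylow] at this
    exact this.2
  · intro h; exact Subgroup.le_normalizer h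

theorem orbit_card (hn : Nat.card (Sylow 7 G) = 15) (P Q : Sylow 7 G) (hne : Q ≠ P) :
    Nat.card (orbit (P : Subgroup G) Q) = 7 := by
  obtain ⟨k, hk⟩ := P.2.card_orbit Q
  have hlt : Nat.card (orbit (P : Subgroup G) Q) < 15 := by
    rw [← hn]
    refine lt_of_le_of_ne (Nat.card_le_card_of_injective _ Subtype.val_injective) fun he => ?_
    obtain ⟨⟨R, hR⟩, hRP⟩ :=
      (Function.Injective.bijective_of_nat_card_le Subtype.val_injective he.ge).2 P
    change R = P at hRP
    subst hRP
    exact not_mem_orbit _ Q hne hR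
  have hk1 : k ≤ 1 := by
    by_contra hk2
    have : 7 ^ 2 ≤ 7 ^ k := Nat.pow_le_pow_right (by norm_num) (by omega)
    omega
  interval_cases k
  · exfalso
    apply hne
    rw [pow_zero, Nat.card_eq_one_iff_unique] at hk
    have hfix : Q ∈ fixedPoints (P : Subgroup G) (Sylow 7 G) := fun x =>
      congrArg Subtype.val
        (@Subsingleton.elim _ hk.1 ⟨x • Q, mem_orbit Q x⟩ ⟨Q, mem_orbit_self Q⟩)
    exact (Sylow.ext (P.3 Q.2 (P.2.sylow_mem_fixedPoints_iff.mp hfix)))
  · simpa using hk

theorem inf_index (hn : Nat.card (Sylow 7 G) = 15) (P Q : Sylow 7 G) (hne : Q ≠ P) :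
    ((Q : Subgroup G).subgroupOf P).index = 7 := by
  rw [← stab_eq P Q]
  exact (Nat.card_congr (orbitEquivQuotientStabilizer _ Q)).symm.trans (orbit_card hn P Q hne)

theorem inf_card (hn : Nat.card (Sylow 7 G) = 15) (P Q : Sylow 7 G) (hne : Q ≠ P) :
    Nat.card ((P : Subgroup G) ⊓ Q : Subgroup G) * 7 = Nat.card (P : Subgroup G) := by
  have h := Subgroup.card_mul_index ((Q : Subgroup G).subgroupOf P)
  rw [inf_index hn P Q hne] at h
  rw [← h]
  congr 1
  rw [← Subgroup.inf_subgroupOf_left]
  exact (Nat.card_congr (Subgroup.subgroupOfEquivOfLe inf_le_left).toEquiv).symm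

theorem inf_le_orbit (hn : Nat.card (Sylow 7 G) = 15) (R X Y : Sylow 7 G) (hne : X ≠ R)
    (hY : Y ∈ orbit (R : Subgroup G) X) : (R : Subgroup G) ⊓ X ≤ Y := by
  obtain ⟨r, rfl⟩ := hY
  have hi := inf_index hn R X hne
  have hpp : (Nat.card (R : Subgroup G)).minFac = 7 := by
    obtain ⟨k, hk⟩ := R.2.exists_card_eq
    rcases Nat.eq_zero_or_pos k with h0 | h0
    · exfalso
      have := inf_card hn R X hne
      rw [hk, h0] at this
      omega
    · rw [hk, Nat.pow_minFac h0.ne']; norm_num
  haveI hnormal : ((X : Subgroup G).subgroupOf R).Normal :=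
    Subgroup.normal_of_index_eq_minFac_card (by rw [hi, hpp])
  intro e he
  have h1 : (r⁻¹ * (⟨e, he.1⟩ : (R : Subgroup G)) * r⁻¹⁻¹) ∈ (X : Subgroup G).subgroupOf R :=
    hnormal.conj_mem _ (Subgroup.mem_subgroupOf.mpr he.2) _
  rw [Subgroup.mem_subgroupOf] at h1
  change e ∈ (((r : G) • X : Sylow 7 G) : Subgroup G)
  rw [Sylow.coe_subgroup_smul, Subgroup.mem_pointwise_smul_iff_inv_smul_mem]
  simpa using h1

theorem card_seven (hn : Nat.card (Sylow 7 G) = 15)
    (hf : ∀ g : G, (∀ Q : Sylow 7 G, g • Q = Q) → g = 1) (P : Sylow 7 G) :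
    Nat.card (P : Subgroup G) = 7 := by
  classical
  haveI : Fintype (Sylow 7 G) := Fintype.ofFinite _
  by_contra hne
  haveI : Nontrivial (Sylow 7 G) := Finite.one_lt_card_iff_nontrivial.mp (by omega)
  obtain ⟨Q, hQ⟩ := exists_ne P
  set D := (P : Subgroup G) ⊓ Q with hD
  have hDc : Nat.card D * 7 = Nat.card (P : Subgroup G) := inf_card hn P Q hQ
  have hDP : IsPGroup 7 D := P.2.to_le inf_le_left
  set L : Set (Sylow 7 G) := {R | D ≤ (R : Subgroup G)} with hL
  have hLfix : L = fixedPoints D (Sylow 7 G) := by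
    ext R; exact hDP.sylow_mem_fixedPoints_iff.symm
  have hLm : Nat.card L % 7 = 1 := by
    have h := hDP.card_modEq_card_fixedPoints (Sylow 7 G)
    rw [hn, ← hLfix] at h
    exact h.symm
  have hL2 : 2 ≤ Nat.card L := by
    haveI : Nontrivial L :=
      ⟨⟨P, (inf_le_left : D ≤ _)⟩, ⟨Q, (inf_le_right : D ≤ _)⟩,
        fun h => hQ (congrArg Subtype.val h).symm⟩
    exact Finite.one_lt_card
  have hLne : L ≠ Set.univ := by
    intro hu
    apply hne
    have : D = ⊥ := by
      rw [eq_bot_iff]; intro g hg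
      rw [Subgroup.mem_bot]
      apply hf
      intro R
      have hR : R ∈ fixedPoints D (Sylow 7 G) := by rw [← hLfix, hu]; trivial
      exact hR ⟨g, hg⟩
    rw [this, Subgroup.card_bot, one_mul] at hDc
    exact hDc.symm
  obtain ⟨R, hR⟩ := (Set.ne_univ_iff_exists_notMem _).mp hLne
  have hXR : ∀ X ∈ L, X ≠ R := fun X hX h => hR (h ▸ hX)
  have key : ∀ X ∈ L, ∀ Y ∈ L, Y ∈ orbit (R : Subgroup G) X → X = Y := by
    intro X hX Y hY hYo
    by_contra hxy
    apply hR
    have hle : (R : Subgroup G) ⊓ X ≤ (X : Subgroup G) ⊓ Y :=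
      le_inf inf_le_right (inf_le_orbit hn R X Y (hXR X hX) hYo)
    have hDle : D ≤ (X : Subgroup G) ⊓ Y := le_inf hX hY
    have c1 := inf_card hn R X (hXR X hX)
    have c2 := inf_card hn X Y (fun h => hxy h.symm)
    rw [card_sylow_eq R P] at c1
    rw [card_sylow_eq X P] at c2
    have e1 := Subgroup.eq_of_le_of_card_ge hle (by omega)
    have e2 := Subgroup.eq_of_le_of_card_ge hDle (by omega)
    change D ≤ (R : Subgroup G)
    rw [e2, ← e1]
    exact inf_le_left
  have h3 : 3 ≤ L.toFinset.card := by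
    rw [Set.toFinset_card, ← Nat.card_eq_fintype_card]; omega
  obtain ⟨s, hs, hsc⟩ := Finset.exists_subset_card_eq h3
  have hcard : (s.biUnion (fun X => (orbit (R : Subgroup G) X).toFinset)).card = 21 := by
    rw [Finset.card_biUnion]
    · rw [Finset.sum_congr rfl (g := fun _ => 7) (fun X hX => ?_), Finset.sum_const, hsc]
      · rfl
      · rw [Set.toFinset_card, ← Nat.card_eq_fintype_card]
        exact orbit_card hn R X (hXR X (Set.mem_toFinset.mp (hs hX)))
    · intro X hX Y hY hXY
      rw [Function.onFun, Finset.disjoint_left]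
      intro Z h1 h2
      rw [Set.mem_toFinset] at h1 h2
      apply hXY
      refine key X (Set.mem_toFinset.mp (hs hX)) Y (Set.mem_toFinset.mp (hs hY)) ?_
      rw [← orbit_eq_iff] at h1 h2 ⊢
      rw [← h2, h1]
  have := Finset.card_le_univ (s.biUnion (fun X => (orbit (R : Subgroup G) X).toFinset))
  rw [hcard, ← Nat.card_eq_fintype_card, hn] at this
  omega

theorem no_prime_centralizing (hn : Nat.card (Sylow 7 G) = 15)
    (hφinj : Function.Injective (MulAction.toPermHom G (Sylow 7 G)))
    [Fintype (Sylow 7 G)] [DecidableEq (Sylow 7 G)] (P : Sylow 7 G) (c : G) (r : ℕ)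
    (hsgn : Equiv.Perm.sign (MulAction.toPermHom G (Sylow 7 G) c) = 1)
    (hcC : c ∈ Subgroup.centralizer ((P : Subgroup G) : Set G)) (hr : r.Prime)
    (hcr : orderOf c = r) : r = 7 := by
  classical
  by_contra h7r
  set σ := MulAction.toPermHom G (Sylow 7 G) c with hσ
  have hor : orderOf σ = r := by rw [hσ, orderOf_injective _ hφinj, hcr]
  have hcomm : ∀ (x : (P : Subgroup G)) (Z : Sylow 7 G), x • σ Z = σ (x • Z) := by
    intro x Z
    change (x : G) • c • Z = c • (x : G) • Z
    rw [smul_smul, smul_smul, hcC x x.2]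
  have horb : ∀ Z W, W ∈ orbit (P : Subgroup G) Z → (σ W = W ↔ σ Z = Z) := by
    rintro Z W ⟨x, rfl⟩
    change σ (x • Z) = x • Z ↔ _
    rw [← hcomm x Z]
    exact (MulAction.injective x).eq_iff
  have hPfix : σ P = P := by
    change c • P = P
    rw [Sylow.smul_eq_iff_mem_normalizer]
    exact Subgroup.centralizer_le_normalizer _ hcC
  set s := σ.support with hs
  have hPs : P ∉ s := Equiv.Perm.notMem_support.mpr hPfix
  have hoc : ∀ Z, Z ≠ P → (orbit (P : Subgroup G) Z).toFinset.card = 7 := by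
    intro Z hZ
    rw [Set.toFinset_card, ← Nat.card_eq_fintype_card, orbit_card hn P Z hZ]
  obtain ⟨Z, hZ⟩ : s.Nonempty := by
    rw [Finset.nonempty_iff_ne_empty, hs, Ne, Equiv.Perm.support_eq_empty_iff]
    intro h1
    rw [h1, orderOf_one] at hor
    exact hr.ne_one hor.symm
  have hge : 7 ≤ s.card := by
    refine (hoc Z (fun h => hPs (h ▸ hZ))).ge.trans ?_
    refine Finset.card_le_card (fun W hW => ?_)
    rw [Set.mem_toFinset] at hW
    rw [hs, Equiv.Perm.mem_support] at hZ ⊢
    exact fun h => hZ ((horb Z W hW).mp h)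
  have hcase : s.card = 7 ∨ s.card = 14 := by
    by_cases hX : ∃ X, X ∉ s ∧ X ≠ P
    · obtain ⟨X, hXs, hXP⟩ := hX
      left
      have hd : Disjoint (insert P (orbit (P : Subgroup G) X).toFinset) s := by
        rw [Finset.disjoint_insert_left]
        refine ⟨hPs, ?_⟩
        rw [Finset.disjoint_left]
        intro W hW
        rw [Set.mem_toFinset] at hW
        rw [hs, Equiv.Perm.notMem_support] at hXs ⊢
        exact (horb X W hW).mpr hXs
      have hPo : P ∉ (orbit (P : Subgroup G) X).toFinset := by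
        rw [Set.mem_toFinset]; exact not_mem_orbit P X hXP
      have := Finset.card_le_univ (insert P (orbit (P : Subgroup G) X).toFinset ∪ s)
      rw [Finset.card_union_of_disjoint hd, Finset.card_insert_of_notMem hPo, hoc X hXP,
        ← Nat.card_eq_fintype_card, hn] at this
      omega
    · right
      have : s = {P}ᶜ := by
        ext X
        rw [Finset.mem_compl, Finset.mem_singleton]
        exact ⟨fun h e => hPs (e ▸ h), fun h => by_contra fun h' => hX ⟨X, h', h⟩⟩
      rw [this, Finset.card_compl, Finset.card_singleton, ← Nat.card_eq_fintype_card, hn]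
  obtain ⟨n, hct⟩ := Equiv.Perm.cycleType_prime_order (hor ▸ hr)
  have hsum := σ.sum_cycleType
  rw [hct, Multiset.sum_replicate, smul_eq_mul, hor, ← hs] at hsum
  have hr2 : r = 2 := by
    have h1 : r ∣ 2 * 7 := by
      rcases hcase with h | h <;> rw [h] at hsum
      · exact Dvd.dvd.mul_left (Dvd.intro_left _ hsum) 2
      · exact Dvd.intro_left _ hsum
    rcases hr.dvd_mul.mp h1 with h | h
    · exact (Nat.prime_dvd_prime_iff_eq hr Nat.prime_two).mp h
    · exact absurd ((Nat.prime_dvd_prime_iff_eq hr (by norm_num)).mp h) h7r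
  have hn6 : n = 6 := by subst hr2; omega
  rw [Equiv.Perm.sign_of_cycleType, hct, Multiset.sum_replicate, Multiset.card_replicate, hor,
    hr2, hn6] at hsgn
  exact absurd hsgn (by decide)

theorem no_faithful (hn : Nat.card (Sylow 7 G) = 15)
    (hf : ∀ g : G, (∀ Q : Sylow 7 G, g • Q = Q) → g = 1) : False := by
  classical
  haveI : Fintype (Sylow 7 G) := Fintype.ofFinite _
  have h7 := card_seven hn hf
  set φ := MulAction.toPermHom G (Sylow 7 G) with hφ
  have hφinj : Function.Injective φ := by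
    rw [injective_iff_map_eq_one]
    intro g hg
    exact hf g (fun Q => by
      have := congrArg (fun σ : Equiv.Perm (Sylow 7 G) => σ Q) hg
      simpa [hφ] using this)
  set A := (Equiv.Perm.sign.comp φ).ker with hA
  have hle : ∀ P : Sylow 7 G, (P : Subgroup G) ≤ A := by
    intro P x hx
    rw [hA, MonoidHom.mem_ker]
    have h := congrArg (Equiv.Perm.sign.comp φ) (pow_seven _ (h7 P) hx)
    rw [map_pow, map_one] at h
    rcases Int.units_eq_one_or (Equiv.Perm.sign.comp φ x) with h1 | h1
    · exact h1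
    · rw [h1] at h; exact absurd h (by decide)
  refine no_small (G := A) ?_ ?_ ?_
  · rw [← Nat.card_congr (sylowEquiv A hle), hn]
  · intro R
    obtain ⟨Q, -, hQ⟩ := sylow_sub A hle R
    rw [hQ, h7 Q]
  · intro R
    obtain ⟨Q, hRQ, hQ⟩ := sylow_sub A hle R
    have hRC : (R : Subgroup A) ≤ Subgroup.centralizer ((R : Subgroup A) : Set A) :=
      prime_le_centralizer (p := 7) _ (hQ.trans (h7 Q))
    have hCp : IsPGroup 7 (Subgroup.centralizer ((R : Subgroup A) : Set A)) := by
      rw [IsPGroup.iff_card]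
      refine ⟨_, Nat.eq_prime_pow_of_unique_prime_dvd Nat.card_pos.ne' ?_⟩
      intro r hr hrdvd
      haveI := Fact.mk hr
      obtain ⟨c, hc⟩ := exists_prime_orderOf_dvd_card' r hrdvd
      refine no_prime_centralizing hn hφinj Q ((c : A) : G) r (c : A).2 ?_ hr ?_
      · exact centralizer_sub A _ (hle Q) _ hRQ c.2
      · rw [Subgroup.orderOf_coe, Subgroup.orderOf_coe, hc]
    exact (R.3 hCp hRC).le

end Faithful

theorem reduce {G : Type*} [Group G] [Finite G] : Nat.card (Sylow 7 G) ≠ 15 := by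
  intro hn
  set K := (MulAction.toPermHom G (Sylow 7 G)).ker with hK
  have hKfix : ∀ k ∈ K, ∀ Q : Sylow 7 G, k • Q = Q := by
    intro k hk Q
    have := congrArg (fun σ : Equiv.Perm (Sylow 7 G) => σ Q) (MonoidHom.mem_ker.mp hk)
    simpa using this
  have hsurj := QuotientGroup.mk'_surjective K
  have hinj : Function.Injective
      (Sylow.mapSurjective hsurj : Sylow 7 G → Sylow 7 (G ⧸ K)) := by
    intro P Q h
    have h' := congrArg
      (fun R : Sylow 7 (G ⧸ K) => (R : Subgroup (G ⧸ K)).comap (QuotientGroup.mk' K)) h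
    simp only [Sylow.coe_mapSurjective, Subgroup.comap_map_eq, QuotientGroup.ker_mk'] at h'
    have hMN : (P : Subgroup G) ⊔ K ≤ Subgroup.normalizer (P : Set G) :=
      sup_le Subgroup.le_normalizer fun k hk =>
        Sylow.smul_eq_iff_mem_normalizer.mp (hKfix k hk P)
    have hQM : (Q : Subgroup G) ≤ (P : Subgroup G) ⊔ K := by rw [h']; exact le_sup_left
    have : (Q : Subgroup G) ≤ P := by
      have h1 : (Q : Subgroup G) ≤ (Q : Subgroup G) ⊓ Subgroup.normalizer (P : Set G) :=
        le_inf le_rfl (hQM.trans hMN)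
      rw [Q.2.inf_normalizer_sylow] at h1
      exact h1.trans inf_le_right
    exact Sylow.ext (Q.3 P.2 this)
  have hbij : Function.Bijective
      (Sylow.mapSurjective hsurj : Sylow 7 G → Sylow 7 (G ⧸ K)) :=
    ⟨hinj, Sylow.mapSurjective_surjective hsurj 7⟩
  refine no_faithful (G := G ⧸ K) (by rw [← Nat.card_eq_of_bijective _ hbij, hn]) ?_
  intro x hx
  induction x using QuotientGroup.induction_on with
  | H g =>
    rw [QuotientGroup.eq_one_iff, hK, MonoidHom.mem_ker]
    ext Q : 1
    change g • Q = Q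
    apply hinj
    refine Eq.trans ?_ (hx (Q.mapSurjective hsurj))
    apply Sylow.ext
    change Subgroup.map (QuotientGroup.mk' K)
        (((g • Q : Sylow 7 G) : Subgroup G)) =
      (((QuotientGroup.mk' K g) • Q.mapSurjective hsurj : Sylow 7 (G ⧸ K)) : Subgroup (G ⧸ K))
    rw [Sylow.coe_subgroup_smul, Sylow.coe_subgroup_smul, Sylow.coe_mapSurjective]
    apply le_antisymm
    · rintro _ ⟨_, ⟨y, hy, rfl⟩, rfl⟩
      exact ⟨QuotientGroup.mk' K y, ⟨y, hy, rfl⟩, by simp [MulAut.conj_apply]⟩
    · rintro _ ⟨_, ⟨y, hy, rfl⟩, rfl⟩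
      exact ⟨g * y * g⁻¹, ⟨y, hy, rfl⟩, by simp [MulAut.conj_apply]⟩

end CfsgLib.SylowCount15
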