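import Mathlib
import Cfsg.Agent.AltTwoPrimes.Special

/-!
No finite group has exactly twenty-one Sylow 5-subgroups.
-/

set_option autoImplicit false
set_option maxHeartbeats 1000000

namespace CfsgLib.SylowCount21

open MulAction Equiv Equiv.Perm

lemma sign_table : ∀ a b : ZMod 5, (a = 1 ∨ a = -1) → (b = 1 ∨ b = -1) →
    (if a * b = 1 then (0 : ZMod 2) else 1) = (if a = 1 then 0 else 1) + (if b = 1 then 0 else 1) := by
  decide

lemma eq_one_of_pow_five : ∀ w : Multiplicative (ZMod 2), w ^ 5 = 1 → w = 1 := by decide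

lemma ofAdd_one_sq : (Multiplicative.ofAdd (1 : ZMod 2)) ^ 2 = 1 := by decide

lemma ofAdd_one_ne : Multiplicative.ofAdd (1 : ZMod 2) ≠ 1 := by decide

theorem no_twentyone {G : Type*} [Group G] [Finite G] : Nat.card (Sylow 5 G) ≠ 21 := by
  classical
  intro hn
  haveI h5 : Fact (Nat.Prime 5) := ⟨by norm_num⟩
  haveI : Fact (Nat.Prime 7) := ⟨by norm_num⟩
  haveI : Fact (Nat.Prime 2) := ⟨Nat.prime_two⟩
  haveI := Fintype.ofFinite (Sylow 5 G)
  have hX : Fintype.card (Sylow 5 G) = 21 := by rw [← Nat.card_eq_fintype_card, hn]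
  let φ : G →* Perm (Sylow 5 G) := toPermHom G (Sylow 5 G)
  let P : Sylow 5 G → Subgroup (Perm (Sylow 5 G)) := fun a => (a : Subgroup G).map φ
  let H : Subgroup (Perm (Sylow 5 G)) := ⨆ a, P a
  have hPH : ∀ a, P a ≤ H := fun a => le_iSup P a
  have hfix : ∀ a, ∀ x ∈ P a, x a = a := by
    rintro a _ ⟨g, hg, rfl⟩
    exact Sylow.smul_eq_iff_mem_normalizer.mpr (Subgroup.le_normalizer hg)
  have honly : ∀ a b, (∀ x ∈ P a, x b = b) → a = b := by
    intro a b h
    have hle : (a : Subgroup G) ≤ Subgroup.normalizer (b : Set G) := fun g hg =>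
      Sylow.smul_eq_iff_mem_normalizer.mp (h (φ g) ⟨g, hg, rfl⟩)
    have h' : (a : Subgroup G) ≤ (a : Subgroup G) ⊓ Subgroup.normalizer (b : Set G) := le_inf le_rfl hle
    rw [a.2.inf_normalizer_sylow] at h'
    exact Sylow.ext (a.3 b.2 (h'.trans inf_le_right)).symm
  have hrange : H ≤ φ.range := iSup_le fun a => by rintro _ ⟨g, -, rfl⟩; exact ⟨g, rfl⟩
  have hnorm : ∀ h ∈ H, ∀ a, ∀ x ∈ P a, h * x * h⁻¹ ∈ P (h a) := by
    rintro h hh a _ ⟨y, hy, rfl⟩
    obtain ⟨g, rfl⟩ := hrange hh
    refine ⟨g * y * g⁻¹, ?_, by simp only [map_mul, map_inv]⟩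
    change g * y * g⁻¹ ∈ ((g • a : Sylow 5 G) : Subgroup G)
    rw [Sylow.coe_subgroup_smul, Subgroup.mem_pointwise_smul_iff_inv_smul_mem]
    simp [mul_assoc]
    exact hy
  have hp : ∀ a, IsPGroup 5 (P a) := fun a => a.2.map φ
  -- the maximal 5-subgroup of a stabiliser
  have hmax : ∀ a, ∀ K : Subgroup (Perm (Sylow 5 G)), K ≤ H → IsPGroup 5 K → (∀ x ∈ K, x a = a) → K ≤ P a := by
    intro a K hKH hKp hK
    have hN : K ≤ Subgroup.normalizer (P a : Set (Perm (Sylow 5 G))) := fun k hk =>
      Subgroup.mem_normalizer_iff.2 fun x => ⟨fun hx => by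
          have := hnorm k (hKH hk) a x hx
          rwa [hK k hk] at this,
        fun hx => by
          have := hnorm k⁻¹ (H.inv_mem (hKH hk)) a _ hx
          rw [hK k⁻¹ (K.inv_mem hk)] at this
          simpa [mul_assoc] using this⟩
    let S' : Sylow 5 φ.range := a.mapSurjective φ.rangeRestrict_surjective
    have hS' : (S' : Subgroup φ.range).map φ.range.subtype = P a := by
      change ((a : Subgroup G).map φ.rangeRestrict).map φ.range.subtype = (a : Subgroup G).map φ
      rw [Subgroup.map_map]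
      rfl
    have hjoin : IsPGroup 5 (K ⊔ P a : Subgroup (Perm (Sylow 5 G))) := hKp.to_sup_of_normal_right' (hp a) hN
    have hle : (K ⊔ P a : Subgroup (Perm (Sylow 5 G))) ≤ φ.range :=
      sup_le (hKH.trans hrange) ((hPH a).trans hrange)
    have h1 := S'.3 (Q := (K ⊔ P a).subgroupOf φ.range)
      (hjoin.comap_of_injective φ.range.subtype φ.range.subtype_injective)
      (by
        rw [← Subgroup.map_subtype_le_map_subtype, hS', Subgroup.map_subgroupOf_eq_of_le hle]
        exact le_sup_right)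
    have h2 := congrArg (Subgroup.map φ.range.subtype) h1
    rw [hS', Subgroup.map_subgroupOf_eq_of_le hle] at h2
    exact h2 ▸ le_sup_left
  have hconjmem : ∀ h ∈ H, ∀ a, ∀ x, h * x * h⁻¹ ∈ P (h a) → x ∈ P a := by
    intro h hh a x hx
    have := hnorm h⁻¹ (H.inv_mem hh) (h a) _ hx
    rw [← Perm.mul_apply, inv_mul_cancel, Perm.one_apply] at this
    simpa [mul_assoc] using this
  -- transitivity
  have hsylH : ∀ a, ∃ S : Sylow 5 H, (S : Subgroup H) = (P a).subgroupOf H := by
    intro a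
    obtain ⟨S, hS⟩ := ((hp a).comap_of_injective H.subtype H.subtype_injective).exists_le_sylow (p := 5)
      (P := (P a).subgroupOf H)
    refine ⟨S, le_antisymm ?_ hS⟩
    have hmap : ((S : Subgroup H).map H.subtype) ≤ P a := by
      refine hmax a _ (Subgroup.map_subtype_le _) (S.2.map _) ?_
      rintro _ ⟨s, hs, rfl⟩
      -- fixed points of a 5-group containing `P a`
      have hPs : ∀ x ∈ P a, x ((s : Perm (Sylow 5 G)) a) = (s : Perm (Sylow 5 G)) a → True := fun _ _ _ => trivial
      letI : MulAction (S : Subgroup H) (Sylow 5 G) :=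
        MulAction.compHom _ (H.subtype.comp (S : Subgroup H).subtype)
      have hmod := S.2.card_modEq_card_fixedPoints (Sylow 5 G)
      have hsub : fixedPoints (S : Subgroup H) (Sylow 5 G) ⊆ {a} := fun b hb =>
        (honly a b fun x hx => hb ⟨⟨x, hPH a hx⟩, hS hx⟩).symm
      have : a ∈ fixedPoints (S : Subgroup H) (Sylow 5 G) := by
        by_contra hc
        have he : fixedPoints (S : Subgroup H) (Sylow 5 G) = ∅ := by
          rw [Set.eq_empty_iff_forall_notMem]
          intro b hb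
          exact hc (hsub hb ▸ hb)
        rw [he, Nat.card_eq_fintype_card, hX] at hmod
        simp [Nat.ModEq] at hmod
      exact this ⟨s, hs⟩
    intro s hs
    exact hmap ⟨s, hs, rfl⟩
  have htrans : ∀ a b, ∃ h ∈ H, h a = b := by
    intro a b
    obtain ⟨Sa, hSa⟩ := hsylH a
    obtain ⟨Sb, hSb⟩ := hsylH b
    obtain ⟨h, hh⟩ := MulAction.exists_smul_eq H Sa Sb
    refine ⟨h, h.2, (honly b _ fun x hx => ?_).symm⟩
    have hxb : (⟨x, hPH b hx⟩ : H) ∈ (Sb : Subgroup H) := hSb ▸ hx
    rw [← hh, Sylow.coe_subgroup_smul, Subgroup.mem_pointwise_smul_iff_inv_smul_mem, hSa] at hxb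
    have h1 : (h : Perm (Sylow 5 G))⁻¹ * x * h ∈ P a := by simpa [Subgroup.mem_subgroupOf] using hxb
    have h2 := hfix a _ h1
    rw [Perm.mul_apply, Perm.mul_apply, Perm.inv_eq_iff_eq] at h2
    exact h2
  have hcardP : ∀ a b, Nat.card (P a) = Nat.card (P b) := by
    intro a b
    obtain ⟨h, hh, rfl⟩ := htrans a b
    rw [← Subgroup.card_map_of_injective (f := (MulAut.conj h).toMonoidHom) (MulAut.conj h).injective]
    refine congrArg (fun K : Subgroup (Perm (Sylow 5 G)) => Nat.card K) (le_antisymm ?_ fun y hy => ?_)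
    · rintro _ ⟨x, hx, rfl⟩
      exact hnorm h hh a x hx
    · refine ⟨h⁻¹ * y * h, ?_, by simp [mul_assoc]⟩
      have := hnorm h⁻¹ (H.inv_mem hh) (h a) y hy
      rw [← Perm.mul_apply, inv_mul_cancel, Perm.one_apply] at this
      simpa using this
  -- the intersection of two Sylow subgroups
  let Q : Sylow 5 G → Sylow 5 G → Subgroup (Perm (Sylow 5 G)) := fun a b => P a ⊓ P b
  have hQmem : ∀ a b, ∀ x ∈ P a, (x b = b ↔ x ∈ Q a b) := by
    intro a b x hx
    refine ⟨fun h => ⟨hx, ?_⟩, fun h => hfix b x h.2⟩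
    refine hmax b (Subgroup.zpowers x) (Subgroup.zpowers_le.2 (hPH a hx))
      ((hp a).to_le (Subgroup.zpowers_le.2 hx)) ?_ (Subgroup.mem_zpowers x)
    rintro _ ⟨i, rfl⟩
    exact Perm.zpow_apply_eq_self_of_apply_eq_self h i
  have horbit : ∀ a b, a ≠ b → Nat.card (P a) = 5 * Nat.card (Q a b) ∧
      5 ≤ (Finset.univ.filter fun c => ∃ x ∈ P a, x b = c).card := by
    intro a b hab
    letI : MulAction (P a) (Sylow 5 G) := MulAction.compHom _ (P a).subtype
    haveI := Fintype.ofFinite (P a)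
    haveI := Fintype.ofFinite (orbit (P a) b)
    have h := card_orbit_mul_card_stabilizer_eq_card_group (P a) b
    rw [← Nat.card_eq_fintype_card, ← Nat.card_eq_fintype_card, ← Nat.card_eq_fintype_card] at h
    have hst : Nat.card (stabilizer (P a) b) = Nat.card (Q a b) :=
      Nat.card_congr
        ⟨fun x => ⟨x.1.1, (hQmem a b _ x.1.2).1 x.2⟩, fun x => ⟨⟨x.1, x.2.1⟩, hfix b _ x.2.2⟩,
          fun _ => rfl, fun _ => rfl⟩
    have hfilter : (Finset.univ.filter fun c => ∃ x ∈ P a, x b = c).card = Nat.card (orbit (P a) b) := by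
      rw [Nat.card_eq_fintype_card, ← Fintype.card_subtype]
      exact Fintype.card_congr (Equiv.subtypeEquivRight fun c =>
        ⟨fun ⟨x, hx, e⟩ => ⟨⟨x, hx⟩, e⟩, fun ⟨x, e⟩ => ⟨x.1, x.2, e⟩⟩)
    have hnot : a ∉ (Finset.univ.filter fun c => ∃ x ∈ P a, x b = c) := by
      intro hc
      obtain ⟨x, hx, e⟩ := (Finset.mem_filter.1 hc).2
      exact hab (x.injective (e.trans (hfix a x hx).symm)).symm
    have hle := Finset.card_le_card (Finset.subset_erase.2 ⟨Finset.subset_univ _, hnot⟩)
    rw [Finset.card_erase_of_mem (Finset.mem_univ a), Finset.card_univ, hX, hfilter] at hle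
    obtain ⟨n, hn'⟩ := IsPGroup.iff_card.1 (hp a)
    have hdvd : Nat.card (orbit (P a) b) ∣ 5 ^ n := hn' ▸ ⟨_, h.symm⟩
    obtain ⟨j, -, hj⟩ := (Nat.dvd_prime_pow h5.out).1 hdvd
    have hj1 : j ≠ 0 := by
      rintro rfl
      obtain ⟨hs, -⟩ := Nat.card_eq_one_iff_unique.1 hj
      exact hab (honly a b fun x hx =>
        congrArg Subtype.val (hs.elim (⟨x b, ⟨⟨x, hx⟩, rfl⟩⟩ : orbit (P a) b) ⟨b, mem_orbit_self b⟩))
    have h5' : Nat.card (orbit (P a) b) = 5 := by
      rcases j with _ | _ | j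
      · exact absurd rfl hj1
      · simpa using hj
      · exfalso
        have : 25 ≤ 5 ^ (j + 1 + 1) := le_of_eq_of_le (by norm_num) (Nat.pow_le_pow_right (by norm_num) (by omega : 2 ≤ j + 1 + 1))
        rw [hj] at hle
        omega
    rw [h5', hst] at h
    exact ⟨h.symm, by rw [hfilter, h5']⟩
  have hQeq : ∀ a b x y, a ≠ b → x ≠ y → Q a b ≤ Q x y → Q a b = Q x y := by
    intro a b x y hab hxy hle
    refine Subgroup.eq_of_le_of_card_ge hle ?_
    have h1 := (horbit a b hab).1
    rw [hcardP a x, (horbit x y hxy).1] at h1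
    omega
  -- lines
  let line : Sylow 5 G → Sylow 5 G → Finset (Sylow 5 G) := fun a b =>
    Finset.univ.filter fun z => ∀ x ∈ Q a b, x z = z
  have hline : ∀ a b z, z ∈ line a b ↔ ∀ x ∈ Q a b, x z = z := fun a b z => by simp [line]
  have hlineQ : ∀ a b z, z ∈ line a b → Q a b ≤ P z := fun a b z hz =>
    hmax z (Q a b) (inf_le_left.trans (hPH a)) ((hp a).to_le inf_le_left) ((hline a b z).1 hz)
  have hlinepair : ∀ a b x y, a ≠ b → x ≠ y → x ∈ line a b → y ∈ line a b → Q a b = Q x y :=
    fun a b x y hab hxy hx hy => hQeq a b x y hab hxy (le_inf (hlineQ a b x hx) (hlineQ a b y hy))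
  have hmemline : ∀ a b, a ∈ line a b ∧ b ∈ line a b := fun a b =>
    ⟨(hline a b a).2 fun x hx => hfix a x hx.1, (hline a b b).2 fun x hx => hfix b x hx.2⟩
  have hlinecard : ∀ a b, a ≠ b → 5 ≤ ((line a b).erase a).card := by
    intro a b hab
    refine (horbit a b hab).2.trans (Finset.card_le_card fun c hc => ?_)
    obtain ⟨x, hx, rfl⟩ := (Finset.mem_filter.1 hc).2
    refine Finset.mem_erase.2 ⟨fun e => hab (x.injective (e.trans (hfix a x hx).symm)).symm, ?_⟩
    refine (hline a b _).2 fun q hq => ?_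
    -- `Q a b` has index five in the 5-group `P a`, so is normal
    have hnormal : ((Q a b).subgroupOf (P a)).Normal := by
      refine Subgroup.normal_of_index_eq_minFac_card ?_
      have h1 := ((Q a b).subgroupOf (P a)).card_mul_index
      rw [Nat.card_congr (Subgroup.subgroupOfEquivOfLe (inf_le_left : Q a b ≤ P a)).toEquiv, (horbit a b hab).1,
        mul_comm 5] at h1
      rw [Nat.eq_of_mul_eq_mul_left Nat.card_pos h1]
      obtain ⟨n, hn'⟩ := IsPGroup.iff_card.1 (hp a)
      have hn0 : n ≠ 0 := by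
        rintro rfl
        rw [(horbit a b hab).1, pow_zero] at hn'
        omega
      rw [hn', Nat.pow_minFac hn0, h5.out.minFac_eq]
    have := hnormal.conj_mem ⟨q, hq.1⟩ hq ⟨x, hx⟩⁻¹
    have h2 := hfix b _ (Subgroup.mem_subgroupOf.1 this).2
    simp only [inv_inv, Subgroup.coe_mul, Subgroup.coe_inv, Perm.mul_apply, Perm.inv_eq_iff_eq] at h2
    exact h2
  -- the Sylow subgroups have order five
  have hP5 : ∀ a, Nat.card (P a) = 5 := by
    intro a
    haveI : Nontrivial (Sylow 5 G) := Fintype.one_lt_card_iff_nontrivial.1 (by omega)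
    obtain ⟨b, hab⟩ := exists_ne a
    by_contra hne
    obtain ⟨q, hq, hq1⟩ : ∃ q ∈ Q a b, q ≠ 1 := by
      refine (Subgroup.bot_or_exists_ne_one (Q a b)).resolve_left fun e => hne ?_
      rw [(horbit a b hab.symm).1, e, Subgroup.card_bot]
    obtain ⟨z, hz⟩ : ∃ z, z ∉ line a b := by
      by_contra hall
      push Not at hall
      exact hq1 (Equiv.ext fun z => (hline a b z).1 (hall z) q hq)
    have h6 : 6 ≤ (line a b).card := by
      have := hlinecard a b hab.symm
      rw [Finset.card_erase_of_mem (hmemline a b).1] at this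
      omega
    have hdisj : (↑(line a b) : Set (Sylow 5 G)).PairwiseDisjoint fun x => (line z x).erase z := by
      intro x hx y hy hxy
      rw [Finset.mem_coe] at hx hy
      rw [Function.onFun, Finset.disjoint_left]
      intro w hwx hwy
      obtain ⟨hwz, hwx⟩ := Finset.mem_erase.1 hwx
      obtain ⟨-, hwy⟩ := Finset.mem_erase.1 hwy
      have hzx : z ≠ x := fun e => hz (e ▸ hx)
      have hzy : z ≠ y := fun e => hz (e ▸ hy)
      have e1 := hlinepair z x z w hzx (Ne.symm hwz) (hmemline z x).1 hwx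
      have e2 := hlinepair z y z w hzy (Ne.symm hwz) (hmemline z y).1 hwy
      have e3 : Q z x ≤ Q x y := le_inf (inf_le_right) ((e1.trans e2.symm) ▸ inf_le_right)
      have e4 := hlinepair a b x y hab.symm hxy hx hy
      apply hz
      rw [hline]
      intro g hg
      refine hfix z g ?_
      rw [e4, ← hQeq z x x y hzx hxy e3] at hg
      exact hg.1
    have hsub : (line a b).biUnion (fun x => (line z x).erase z) ⊆ Finset.univ.erase z := by
      intro w hw
      obtain ⟨x, -, hwx⟩ := Finset.mem_biUnion.1 hw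
      exact Finset.mem_erase.2 ⟨(Finset.mem_erase.1 hwx).1, Finset.mem_univ _⟩
    have := Finset.card_le_card hsub
    rw [Finset.card_biUnion hdisj, Finset.card_erase_of_mem (Finset.mem_univ z), Finset.card_univ, hX] at this
    have h30 := Finset.card_nsmul_le_sum (line a b) (fun x => ((line z x).erase z).card) 5
      (fun x hx => hlinecard z x fun e => hz (e ▸ hx))
    rw [smul_eq_mul] at h30
    omega
  obtain ⟨a⟩ : Nonempty (Sylow 5 G) := inferInstance
  obtain ⟨⟨p, hpP⟩, hpord⟩ := exists_prime_orderOf_dvd_card' (G := P a) 5 (by rw [hP5])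
  have hpord' : orderOf p = 5 := (Subgroup.orderOf_coe ⟨p, hpP⟩).trans hpord
  have hgen : P a = Subgroup.zpowers p :=
    (Subgroup.eq_of_le_of_card_ge (Subgroup.zpowers_le.2 hpP) (by rw [Nat.card_zpowers, hpord', hP5])).symm
  have hpmoves : ∀ b, b ≠ a → p b ≠ b := fun b hb e => hb (honly a b fun x hx => by
    rw [hgen] at hx
    obtain ⟨i, rfl⟩ := hx
    exact Perm.zpow_apply_eq_self_of_apply_eq_self e i).symm
  -- even permutations
  have heven : H ≤ alternatingGroup (Sylow 5 G) := by
    refine iSup_le fun c x hx => ?_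
    rw [mem_alternatingGroup]
    have h1 : sign x ^ 5 = 1 := by
      rw [← map_pow]
      have := orderOf_dvd_natCard (⟨x, hx⟩ : P c)
      rw [← Subgroup.orderOf_coe, hP5, orderOf_dvd_iff_pow_eq_one] at this
      rw [this, map_one]
    have h2 : sign x ^ 2 = 1 := Int.units_sq _
    calc sign x = (sign x ^ 2) ^ 2 * sign x := by rw [h2, one_pow, one_mul]
      _ = sign x ^ 5 := by rw [← pow_mul, ← pow_succ]
      _ = 1 := h1
  -- supports of elements commuting with `p` and fixing `a`
  have hsupp : ∀ t : Perm (Sylow 5 G), Commute t p → t a = a → 5 ∣ t.support.card ∧ t.support.card ≤ 20 := by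
    intro t htc hta
    have hinv : ∀ z, p z ∈ t.support ↔ z ∈ t.support := by
      intro z
      simp only [Perm.mem_support, ne_eq]
      rw [not_iff_not, ← Perm.mul_apply, htc.eq, Perm.mul_apply]
      exact p.injective.eq_iff
    refine ⟨?_, ?_⟩
    · let π : Perm {z // z ∈ t.support} := p.subtypePerm hinv
      have hπ : π ^ 5 ^ 1 = 1 := by
        rw [pow_one]
        refine Equiv.ext fun z => Subtype.ext ?_
        have hval : ∀ k : ℕ, ((π ^ k) z : Sylow 5 G) = (p ^ k) z := fun k => by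
          induction k with
          | zero => rfl
          | succ k ih => rw [pow_succ', pow_succ', Perm.mul_apply, Perm.mul_apply, ← ih]; rfl
        rw [hval, orderOf_dvd_iff_pow_eq_one.1 hpord'.dvd]
        rfl
      by_contra hnd
      obtain ⟨z, hz⟩ := Equiv.Perm.exists_fixed_point_of_prime (p := 5) (n := 1)
        (by rwa [Fintype.card_coe]) hπ
      refine hpmoves z (fun e => Perm.mem_support.1 z.2 ?_) (congrArg Subtype.val hz)
      rw [e, hta]
    · have : t.support ⊆ Finset.univ.erase a := fun z hz =>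
        Finset.mem_erase.2 ⟨fun e => Perm.mem_support.1 hz (e ▸ hta), Finset.mem_univ _⟩
      have := Finset.card_le_card this
      rwa [Finset.card_erase_of_mem (Finset.mem_univ a), Finset.card_univ, hX] at this
  have hseven : ∀ t : Perm (Sylow 5 G), Commute t p → t a = a → t ^ 7 = 1 → t = 1 := by
    intro t htc hta ht7
    by_contra hne
    have hord : orderOf t = 7 := orderOf_eq_prime ht7 hne
    obtain ⟨c, hc⟩ := cycleType_prime_order (σ := t) (by rw [hord]; norm_num)
    obtain ⟨h1, h2⟩ := hsupp t htc hta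
    rw [← sum_cycleType, hc, Multiset.sum_replicate, smul_eq_mul, hord] at h1 h2
    omega
  have htwo : ∀ (m : ℕ) (v : Perm (Sylow 5 G)), v ∈ H → Commute v p → v a = a → v ^ 2 ^ m = 1 →
      ∀ z, z ≠ a → v z = z → v = 1 := by
    intro m
    induction m with
    | zero => intro v _ _ _ hv _ _ _; simpa using hv
    | succ m ih =>
      intro v hvH hvc hva hv z hz hvz
      have hv2 : v ^ 2 = 1 := ih (v ^ 2) (H.pow_mem hvH 2) (hvc.pow_left 2)
        (Perm.pow_apply_eq_self_of_apply_eq_self hva 2) (by rw [← pow_mul, ← pow_succ', hv]) z hz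
        (Perm.pow_apply_eq_self_of_apply_eq_self hvz 2)
      by_contra hne
      have hord : orderOf v = 2 := orderOf_eq_prime hv2 hne
      obtain ⟨c, hc⟩ := cycleType_prime_order (σ := v) (by rw [hord]; norm_num)
      obtain ⟨h1, h2⟩ := hsupp v hvc hva
      have hs : sign v = (-1 : ℤˣ) ^ (v.cycleType.sum + Multiset.card v.cycleType) := sign_of_cycleType v
      rw [hc, Multiset.sum_replicate, Multiset.card_replicate, smul_eq_mul, hord,
        mem_alternatingGroup.1 (heven hvH)] at hs
      rw [← sum_cycleType, hc, Multiset.sum_replicate, smul_eq_mul, hord] at h1 h2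
      have hcodd : Even ((c + 1) * 2 + (c + 1)) := by
        by_contra ho
        rw [Nat.not_even_iff_odd] at ho
        rw [ho.neg_one_pow] at hs
        exact absurd hs (by decide)
      rw [Nat.even_iff] at hcodd
      have h20 : v.support.card = 20 := by
        rw [← sum_cycleType, hc, Multiset.sum_replicate, smul_eq_mul, hord]
        omega
      have hsub : v.support ⊆ (Finset.univ.erase a).erase z := fun w hw =>
        Finset.mem_erase.2 ⟨fun e => Perm.mem_support.1 hw (e ▸ hvz),
          Finset.mem_erase.2 ⟨fun e => Perm.mem_support.1 hw (e ▸ hva), Finset.mem_univ _⟩⟩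
      have := Finset.card_le_card hsub
      rw [h20, Finset.card_erase_of_mem (Finset.mem_erase.2 ⟨hz, Finset.mem_univ _⟩),
        Finset.card_erase_of_mem (Finset.mem_univ a), Finset.card_univ, hX] at this
      omega
  haveI : IsPretransitive H (Sylow 5 G) := ⟨fun x y => by
    obtain ⟨h, hh, e⟩ := htrans x y
    exact ⟨⟨h, hh⟩, e⟩⟩
  set S := stabilizer H a with hS
  have hmemS : ∀ s : H, s ∈ S ↔ (s : Perm (Sylow 5 G)) a = a := fun s => Iff.rfl
  have hSidx : S.index = 21 := by
    rw [hS, index_stabilizer_of_transitive, hn]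
  let pH : H := ⟨p, hPH a hpP⟩
  have hpH : orderOf pH = 5 := by rw [← Subgroup.orderOf_coe]; exact hpord'
  have hSconj : ∀ s ∈ S, s * pH * s⁻¹ ∈ Subgroup.zpowers pH := by
    intro s hs
    have h1 := hnorm s s.2 a p hpP
    rw [(hmemS s).1 hs, hgen] at h1
    obtain ⟨i, hi⟩ := h1
    exact ⟨i, Subtype.ext (by rw [Subgroup.coe_zpow]; exact hi)⟩
  have h7S : ¬ 7 ∣ Nat.card S := by
    intro h7
    obtain ⟨⟨t, htS⟩, ht⟩ := exists_prime_orderOf_dvd_card' (G := S) 7 h7
    rw [← Subgroup.orderOf_coe] at ht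
    change orderOf t = 7 at ht
    obtain ⟨-, h2, -⟩ := CfsgLib.AltTwoPrimes.conj_cases hpH (hSconj t htS)
    have hc := h2 7 (by norm_num) (by rw [← ht, pow_orderOf_eq_one]; exact Commute.one_left _)
    have := hseven t (hc.map H.subtype) ((hmemS t).1 htS) (by
      rw [← SubgroupClass.coe_pow, ← ht, pow_orderOf_eq_one]; rfl)
    rw [← Subgroup.orderOf_coe, this, orderOf_one] at ht
    norm_num at ht
  by_cases hcase : ∀ s ∈ S, Commute s pH
  · -- a normal complement
    obtain ⟨SP, hSP⟩ := hsylH a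
    have hle : Subgroup.normalizer (SP : Set H) ≤ Subgroup.centralizer (SP : Set H) := by
      intro s hs
      have hsS : s ∈ S := by
        rw [hmemS]
        refine (honly a _ fun x hx => ?_).symm
        have h1 : s⁻¹ * (⟨x, hPH a hx⟩ : H) * s ∈ (SP : Subgroup H) := by
          refine (Subgroup.mem_normalizer_iff.1 hs _).2 ?_
          rw [show s * (s⁻¹ * (⟨x, hPH a hx⟩ : H) * s) * s⁻¹ = ⟨x, hPH a hx⟩ by group]
          exact hSP ▸ hx
        rw [hSP, Subgroup.mem_subgroupOf] at h1
        have h2 := hfix a _ h1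
        rw [Subgroup.coe_mul, Subgroup.coe_mul, Subgroup.coe_inv, Perm.mul_apply, Perm.mul_apply,
          Perm.inv_eq_iff_eq] at h2
        exact h2
      rw [Subgroup.mem_centralizer_iff]
      intro y hy
      replace hy : y ∈ (SP : Subgroup H) := hy
      rw [hSP, Subgroup.mem_subgroupOf, hgen] at hy
      obtain ⟨i, hi⟩ := hy
      rw [show y = pH ^ i from Subtype.ext (by rw [Subgroup.coe_zpow]; exact hi.symm)]
      exact ((hcase s hsS).zpow_right i).eq.symm
    set K := (MonoidHom.transferSylow SP hle).ker with hK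
    have hcompl : Subgroup.IsComplement' K (SP : Subgroup H) :=
      MonoidHom.ker_transferSylow_isComplement' SP hle
    haveI : K.Normal := by rw [hK]; infer_instance
    have hSPcard : Nat.card (SP : Subgroup H) = 5 := by
      rw [hSP, Nat.card_congr (Subgroup.subgroupOfEquivOfLe (hPH a)).toEquiv, hP5]
    have hH : Nat.card H = 21 * Nat.card S := by rw [← hSidx, mul_comm, S.card_mul_index]
    have h7K : 7 ∣ Nat.card K := by
      have h := hcompl.card_mul
      rw [hSPcard, hH] at h
      exact (Nat.Coprime.dvd_mul_right (by norm_num : Nat.Coprime 7 5)).1 (h ▸ Dvd.dvd.mul_right (by norm_num) _)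
    have h49 : ¬ 7 ^ 2 ∣ Nat.card K := by
      intro h
      have h1 := (h.trans (Subgroup.card_subgroup_dvd_card K))
      rw [hH, show 21 * Nat.card S = 7 * (3 * Nat.card S) by ring, pow_two] at h1
      exact h7S ((Nat.Coprime.dvd_mul_left (by norm_num : Nat.Coprime 7 3)).1
        (Nat.dvd_of_mul_dvd_mul_left (by norm_num) h1))
    obtain ⟨x, hx⟩ := exists_prime_orderOf_dvd_card' (G := K) 7 h7K
    obtain ⟨R, hR⟩ := CfsgLib.AltTwoPrimes.exists_sylow_zpowers hx h49
    have hfr := Sylow.normalizer_sup_eq_top R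
    set N := Subgroup.normalizer (((R : Subgroup K).map K.subtype : Subgroup H) : Set H) with hN
    have h5N : 5 ∣ Nat.card N := by
      have h := Subgroup.relIndex_dvd_card K N
      rwa [← Subgroup.relIndex_sup_right (H := N) (K := K), hfr, Subgroup.relIndex_top_right,
        hcompl.symm.index_eq_card, hSPcard] at h
    obtain ⟨⟨y, hyN⟩, hy⟩ := exists_prime_orderOf_dvd_card' (G := N) 5 h5N
    rw [← Subgroup.orderOf_coe] at hy
    change orderOf y = 5 at hy
    have hxH : orderOf (x : H) = 7 := by rw [Subgroup.orderOf_coe, hx]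
    have hRmap : (R : Subgroup K).map K.subtype = Subgroup.zpowers (x : H) := by
      rw [hR, MonoidHom.map_zpowers]; rfl
    have hyx : y * (x : H) * y⁻¹ ∈ Subgroup.zpowers (x : H) := by
      rw [← hRmap]
      exact (Subgroup.mem_normalizer_iff.1 hyN _).1 (hRmap ▸ Subgroup.mem_zpowers _)
    obtain ⟨-, h2, -⟩ := CfsgLib.AltTwoPrimes.conj_cases hxH hyx
    have hc := h2 5 (by norm_num) (by rw [orderOf_dvd_iff_pow_eq_one.1 hy.dvd]; exact Commute.one_left _)
    -- `y` lies in some `P b`
    obtain ⟨Sy, hSy⟩ := (IsPGroup.of_card (p := 5) (n := 1) (G := Subgroup.zpowers y)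
      (by rw [Nat.card_zpowers, hy, pow_one])).exists_le_sylow
    obtain ⟨g, hg⟩ := MulAction.exists_smul_eq H SP Sy
    set b := (g : Perm (Sylow 5 G)) a with hb
    have hyb : (y : Perm (Sylow 5 G)) ∈ P b := by
      have h1 := hSy (Subgroup.mem_zpowers y)
      rw [← hg, Sylow.coe_subgroup_smul, Subgroup.mem_pointwise_smul_iff_inv_smul_mem, hSP] at h1
      have h3 : (g : Perm (Sylow 5 G))⁻¹ * y * g ∈ P a := by simpa [Subgroup.mem_subgroupOf] using h1
      have h4 := hnorm g g.2 a _ h3
      simpa [mul_assoc] using h4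
    have hyfix : ((x : H) : Perm (Sylow 5 G)) b = b := by
      refine (honly b _ fun z hz => ?_).symm
      have hzy : z ∈ Subgroup.zpowers (y : Perm (Sylow 5 G)) := by
        rw [Subgroup.eq_of_le_of_card_ge (Subgroup.zpowers_le.2 hyb) (by
          rw [Nat.card_zpowers, Subgroup.orderOf_coe, hy, hP5])]
        exact hz
      obtain ⟨i, rfl⟩ := hzy
      change ((y : Perm (Sylow 5 G)) ^ i) (((x : H) : Perm (Sylow 5 G)) b) = ((x : H) : Perm (Sylow 5 G)) b
      have hc' : Commute (y : Perm (Sylow 5 G)) ((x : H) : Perm (Sylow 5 G)) := hc.map H.subtype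
      rw [← Perm.mul_apply, (hc'.zpow_left i).eq, Perm.mul_apply]
      exact congrArg _ (Perm.zpow_apply_eq_self_of_apply_eq_self (hfix b _ hyb) i)
    have h7b : 7 ∣ Nat.card (stabilizer H b) := by
      rw [← hxH]
      exact Subgroup.orderOf_dvd_natCard _ hyfix
    have heq : Nat.card (stabilizer H b) = Nat.card S := by
      have h1 := (stabilizer H b).card_mul_index
      have h2 := S.card_mul_index
      rw [index_stabilizer_of_transitive, hn] at h1
      rw [hSidx] at h2
      omega
    exact h7S (heq ▸ h7b)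
  -- a subgroup of index two
  push Not at hcase
  obtain ⟨s₀, hs₀, hs₀c⟩ := hcase
  have hexp : ∀ s ∈ S, Commute (s ^ 4) pH := fun s hs => (CfsgLib.AltTwoPrimes.conj_cases hpH (hSconj s hs)).1
  obtain ⟨T⟩ : Nonempty (Sylow 2 S) := inferInstance
  set TH : Subgroup H := (T : Subgroup S).map S.subtype with hTH
  have hTp : IsPGroup 2 TH := T.2.map _
  have hTS : ∀ t ∈ TH, t ∈ S := fun t ht => Subgroup.map_subtype_le _ ht
  have hTidx : ¬ 2 ∣ TH.index := by
    rw [hTH, Subgroup.index_map_subtype, hSidx]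
    intro h
    rcases Nat.prime_two.dvd_mul.1 h with h | h
    · exact T.not_dvd_index h
    · norm_num at h
  -- an element of `T` moving `p`
  have hTc : ∃ t ∈ TH, ¬ Commute t pH := by
    by_contra hall
    push Not at hall
    -- the odd part of `s₀` centralises `p`, and its 2-part is conjugate into `T`
    obtain ⟨k, d, hd, hkd⟩ := Nat.exists_eq_pow_mul_and_not_dvd (orderOf_pos s₀).ne' 2 (by norm_num)
    have hdcop : d.Coprime 4 := (Nat.Coprime.pow_left 2 (Nat.prime_two.coprime_iff_not_dvd.2 hd)).symm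
    set u := s₀ ^ d with hu
    have hu2 : u ^ 2 ^ k = 1 := by rw [hu, ← pow_mul, mul_comm, ← hkd, pow_orderOf_eq_one]
    have huc : ¬ Commute u pH := fun h => hs₀c ((CfsgLib.AltTwoPrimes.conj_cases hpH (hSconj s₀ hs₀)).2.1 d hdcop h)
    let u' : S := ⟨u, S.pow_mem hs₀ d⟩
    have hup : IsPGroup 2 (Subgroup.zpowers u') := by
      obtain ⟨i, -, hi⟩ := (Nat.dvd_prime_pow Nat.prime_two).1 (orderOf_dvd_of_pow_eq_one hu2)
      refine IsPGroup.of_card (n := i) ?_
      rw [Nat.card_zpowers, ← hi, ← Subgroup.orderOf_coe]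
    obtain ⟨U, hU⟩ := hup.exists_le_sylow
    obtain ⟨g, hg⟩ := MulAction.exists_smul_eq S T U
    have h1 := hU (Subgroup.mem_zpowers u')
    rw [← hg, Sylow.coe_subgroup_smul, Subgroup.mem_pointwise_smul_iff_inv_smul_mem] at h1
    have hmem : (g : H)⁻¹ * u * g ∈ TH := ⟨_, h1, by simp [u', mul_assoc]⟩
    have h2 := hall _ hmem
    -- `g` normalises `⟨p⟩`
    obtain ⟨i, hi⟩ := hSconj (g : H)⁻¹ (S.inv_mem g.2)
    replace hi : pH ^ i = (g : H)⁻¹ * pH * g := hi.trans (by rw [inv_inv])
    apply huc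
    have h3 := h2.zpow_right i
    rw [hi] at h3
    have h4 : Commute ((g : H) * ((g : H)⁻¹ * u * g) * (g : H)⁻¹) ((g : H) * ((g : H)⁻¹ * pH * g) * (g : H)⁻¹) :=
      h3.map (MulAut.conj (g : H)).toMonoidHom
    simpa [mul_assoc] using h4
  -- the action of `T` on `⟨p⟩`, as exponents
  have hexpo : ∀ t : TH, ∃ i : ℕ, (t : H) * pH * (t : H)⁻¹ = pH ^ i := fun t => by
    obtain ⟨i, hi⟩ := (isOfFinOrder_of_finite pH).mem_powers_iff_mem_zpowers.2 (hSconj t (hTS t t.2))
    exact ⟨i, hi.symm⟩
  choose e he using hexpo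
  have hinjpow : ∀ i j : ℕ, pH ^ i = pH ^ j ↔ (i : ZMod 5) = j := fun i j => by
    rw [pow_eq_pow_iff_modEq, hpH, ← ZMod.natCast_eq_natCast_iff]
  have hemul : ∀ s t : TH, (e (s * t) : ZMod 5) = e s * e t := by
    intro s t
    rw [← Nat.cast_mul, ← hinjpow, ← he, pow_mul, ← he, conj_pow, ← he]
    simp [mul_assoc]
  let χ : TH →* ZMod 5 :=
    { toFun := fun t => (e t : ZMod 5)
      map_one' := by rw [← Nat.cast_one, ← hinjpow, ← he, pow_one]; simp
      map_mul' := hemul }
  have hχ1 : ∀ t : TH, χ t = 1 ↔ Commute (t : H) pH := fun t => by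
    change (e t : ZMod 5) = 1 ↔ _
    rw [← Nat.cast_one, ← hinjpow, ← he, pow_one, mul_inv_eq_iff_eq_mul]
    rfl
  -- choose the largest character value
  obtain ⟨n, hn1, hchar, ⟨u, hu⟩⟩ : ∃ n : ℕ, (n = 1 ∨ n = 2) ∧ (∀ t : TH, χ t ^ (2 * n) = 1) ∧
      ∃ u : TH, χ u ^ n ≠ 1 := by
    have h4 : ∀ t : TH, χ t ^ 4 = 1 := fun t => by
      rw [← map_pow, hχ1, SubgroupClass.coe_pow]
      exact hexp _ (hTS t t.2)
    by_cases h : ∃ u : TH, χ u ^ 2 ≠ 1
    · exact ⟨2, Or.inr rfl, h4, h⟩
    · push Not at h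
      obtain ⟨t, ht, htc⟩ := hTc
      exact ⟨1, Or.inl rfl, h, ⟨⟨t, ht⟩, by rw [pow_one, ne_eq, hχ1]; exact htc⟩⟩
  -- the quotient of order two
  have hpm : ∀ t : TH, χ t ^ n = 1 ∨ χ t ^ n = -1 := fun t => by
    have h := hchar t
    rw [mul_comm, pow_mul] at h
    exact sq_eq_one_iff.1 h
  let θ : TH →* Multiplicative (ZMod 2) :=
    { toFun := fun t => Multiplicative.ofAdd (if χ t ^ n = 1 then (0 : ZMod 2) else 1)
      map_one' := by simp
      map_mul' := fun s t => by
        rw [map_mul, mul_pow, ← ofAdd_add]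
        refine congrArg _ ?_
        convert sign_table _ _ (hpm s) (hpm t) }
  -- conjugates inside `T` of elements of `T` have the same image
  have hfusion : ∀ (x y : TH), IsConj (x : H) (y : H) → (χ x ^ n = 1 ↔ χ y ^ n = 1) := by
    suffices h : ∀ (x y : TH), IsConj (x : H) (y : H) → χ x ^ n = 1 → χ y ^ n = 1 from
      fun x y hc => ⟨h x y hc, h y x hc.symm⟩
    intro x y hc hx
    obtain ⟨g, hg⟩ := isConj_iff.1 hc
    have hxc : Commute ((x ^ n : TH) : H) pH := (hχ1 _).1 (by rw [map_pow, hx])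
    rw [← map_pow, hχ1]
    rw [SubgroupClass.coe_pow] at hxc ⊢
    set w := (x : H) ^ n with hw
    have hwT : w ∈ TH := pow_mem x.2 n
    have hy : (y : H) ^ n = g * w * g⁻¹ := by rw [hw, ← hg, conj_pow]
    by_cases hw1 : w = 1
    · rw [hy, hw1]; simp
    obtain ⟨m, hm⟩ := hTp ⟨w, hwT⟩
    replace hm : w ^ 2 ^ m = 1 := congrArg Subtype.val hm
    have honlyw : ∀ z, (w : Perm (Sylow 5 G)) z = z → z = a := by
      intro z hz
      by_contra hza
      exact hw1 (Subtype.ext (htwo m w w.2 (hxc.map H.subtype) ((hmemS w).1 (hTS w hwT))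
        (by rw [← SubgroupClass.coe_pow, hm]; rfl) z hza hz))
    have hga : (g : Perm (Sylow 5 G)) a = a := by
      have h1 : ((g * w * g⁻¹ : H) : Perm (Sylow 5 G)) a = a := (hmemS _).1 (hy ▸ hTS _ (pow_mem y.2 n))
      rw [Subgroup.coe_mul, Subgroup.coe_mul, Subgroup.coe_inv, Perm.mul_apply, Perm.mul_apply,
        ← Perm.eq_inv_iff_eq] at h1
      have h2 := honlyw _ h1
      rw [Perm.inv_eq_iff_eq] at h2
      exact h2.symm
    rw [hy]
    obtain ⟨i, hi⟩ := hSconj g⁻¹ (S.inv_mem ((hmemS g).2 hga))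
    replace hi : pH ^ i = g⁻¹ * pH * g := hi.trans (by rw [inv_inv])
    have h3 := hxc.zpow_right i
    rw [hi] at h3
    have h4 : Commute (g * w * g⁻¹) (g * (g⁻¹ * pH * g) * g⁻¹) := h3.map (MulAut.conj g).toMonoidHom
    rwa [show g * (g⁻¹ * pH * g) * g⁻¹ = pH by group] at h4
  -- the transfer is nontrivial
  haveI := Fintype.ofFinite (Quotient (orbitRel (Subgroup.zpowers (u : H)) (H ⧸ TH)))
  have hval : MonoidHom.transfer θ (u : H) = θ u ^ TH.index := by
    rw [MonoidHom.transfer_eq_prod_quotient_orbitRel_zpowers_quot]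
    have hterm : ∀ q : Quotient (orbitRel (Subgroup.zpowers (u : H)) (H ⧸ TH)),
        θ ⟨q.out.out⁻¹ * (u : H) ^ Function.minimalPeriod ((u : H) • ·) q.out * q.out.out,
            QuotientGroup.out_conj_pow_minimalPeriod_mem TH (u : H) q.out⟩ =
          θ u ^ Function.minimalPeriod ((u : H) • ·) q.out := by
      intro q
      rw [← map_pow]
      refine congrArg Multiplicative.ofAdd (if_congr (hfusion _ _ ?_) rfl rfl)
      rw [SubgroupClass.coe_pow, isConj_iff]
      exact ⟨q.out.out, by group⟩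
    rw [Finset.prod_congr rfl fun q _ => hterm q, Finset.prod_pow_eq_pow_sum]
    congr 1
    haveI := TH.fintypeQuotientOfFiniteIndex
    rw [Subgroup.index_eq_card, Nat.card_eq_fintype_card,
      Fintype.card_congr (Subgroup.quotientEquivSigmaZMod TH (u : H)), Fintype.card_sigma]
    refine Finset.sum_congr rfl fun q _ => ?_
    rw [ZMod.card]
  have hθu : θ u = Multiplicative.ofAdd 1 := congrArg Multiplicative.ofAdd (if_neg hu)
  have htriv : ∀ x : H, MonoidHom.transfer θ x = 1 := by
    intro x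
    have hker : H ≤ (MonoidHom.transfer θ).ker.map H.subtype := by
      refine iSup_le fun c z hz => ⟨⟨z, hPH c hz⟩, ?_, rfl⟩
      rw [SetLike.mem_coe, MonoidHom.mem_ker]
      have hz5 : (⟨z, hPH c hz⟩ : H) ^ 5 = 1 := by
        refine Subtype.ext ?_
        have := orderOf_dvd_natCard (⟨z, hz⟩ : P c)
        rw [← Subgroup.orderOf_coe, hP5, orderOf_dvd_iff_pow_eq_one] at this
        exact this
      have h1 := congrArg (MonoidHom.transfer θ) hz5
      rw [map_pow, map_one] at h1
      exact eq_one_of_pow_five _ h1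
    obtain ⟨x', hx', e⟩ := hker x.2
    rw [← Subtype.ext (show (x' : Perm (Sylow 5 G)) = x from e)]
    exact hx'
  rw [htriv, hθu, eq_comm] at hval
  obtain ⟨c, hc⟩ : Odd TH.index := Nat.not_even_iff_odd.1 fun he => hTidx he.two_dvd
  rw [hc, pow_succ, pow_mul, ofAdd_one_sq, one_pow, one_mul] at hval
  exact ofAdd_one_ne hval

end CfsgLib.SylowCount21
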